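import Cfsg.Agent.H608.Lb.Loc
import Cfsg.Agent.H627.PrincipalCount
import Cfsg.Agent.H133.PB.Basic
import Cfsg.Agent.OddOrderCharacters.PF13Cong
import Cfsg.Agent.CharactersDeep.ModCongr
import Cfsg.Agent.Blocks.Basic

/-!
# S4879, tool T2: the integral columns at `x` (helper608)

`x` of order `p`, `C_G(x) = ⟨x⟩ × K`, Sylow `p`-subgroups of `K` of order `p`.

* `Sit p x K`;
* `Cols p M x K e m u s Φ q` : `q χ i = ⟨χ(x ·), Φ i⟩` is an integer, `χ(x y) = Σ q χ i s i u i(y)` for `χ` in the principal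
  block and `y ∈ K` `p`-regular, `q χ = 0` for the other characters, `Σ q χ i q χ j = p (δ + m)`;
* `exists_cols` : existence, if `x` is conjugate to all `x ^ k` by elements which fix the `u i`;
* `inv_of_deg` : this follows if the `u i` are determined by their degrees.
-/

set_option autoImplicit false
set_option linter.unusedSectionVars false
set_option linter.unusedVariables false

open scoped ComplexConjugate
open Cfsg Cfsg.Agent.Characters.Core Cfsg.Agent.OddOrderCharacters.VChar

namespace Cfsg.Agent.H608.Lb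

open Cfsg.Agent.H608.BlockRank

universe u

/-- `C_G(x) = ⟨x⟩ × K`, `x` of order `p` -/
structure Sit (p : ℕ) {G : Type u} [Group G] (x : G) (K : Subgroup G) : Prop where
  ord : orderOf x = p
  le : K ≤ Subgroup.centralizer ({x} : Set G)
  nmem : x ∉ K
  card : Nat.card (Subgroup.centralizer ({x} : Set G)) = p * Nat.card K

/-- **The integral columns at `x`.** -/
structure Cols (p : ℕ) (M : Ideal AlgInt) {G : Type u} [Group G] (x : G) (K : Subgroup G) [Fintype K] (e m : ℕ)
    (u : Fin e → IrrCharacter K) (s : Fin e → ℤ) (Φ : Fin e → K → ℂ) (q : IrrCharacter G → Fin e → ℤ) : Prop where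
  def_ : ∀ (χ : IrrCharacter G) i, classInner (fun k : K => (χ : G → ℂ) (x * k)) (Φ i) = q χ i
  val : ∀ χ ∈ principalBlock M G, ∀ y : K, ¬ p ∣ orderOf y →
    (χ : G → ℂ) (x * y) = ∑ i, (q χ i : ℂ) * ((s i : ℂ) * (u i : K → ℂ) y)
  zero : ∀ χ : IrrCharacter G, χ ∉ principalBlock M G → ∀ i, q χ i = 0
  gram : ∀ [Fintype (IrrCharacter G)] (i j : Fin e), ∑ χ : IrrCharacter G, q χ i * q χ j = p * ((if i = j then 1 else 0) + m)
  sum : ∀ χ : IrrCharacter G, χ ∈ principalBlock M G → ∑ i, q χ i ≡ charDegree (χ : G → ℂ) [ZMOD p]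
  one : ∀ i₀, (u i₀ : K → ℂ) = 1 → ∀ χ : IrrCharacter G, (χ : G → ℂ) = 1 → ∀ i, q χ i = if i = i₀ then s i₀ else 0

section const

variable {A : Type u} [Group A] [Fintype A]

/-- a generalized character which is constant on the nonidentity elements of a group of order `p` -/
theorem int_of_const {α : A → ℂ} (hα : IsGeneralizedCharacter A α) (hA : 1 < Nat.card A) {c : ℂ}
    (hc : ∀ t : A, t ≠ 1 → α t = c) : ∃ z : ℤ, c = z := by
  classical
  obtain ⟨n, hn⟩ := gen_inner hα (gen_one (G := A))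
  obtain ⟨z, hz⟩ := gen_apply_one hα
  have h1 : (Nat.card A : ℂ) ≠ 0 := by exact_mod_cast Nat.card_pos.ne'
  have h2 : ∑ t : A, α t = Nat.card A * n := by
    rw [classInner_def] at hn
    have h3 : ∑ t : A, α t * conj ((1 : A → ℂ) t) = ∑ t : A, α t := by
      refine Finset.sum_congr rfl fun t _ => ?_
      rw [Pi.one_apply, map_one, mul_one]
    rw [h3] at hn
    rw [← hn, ← mul_assoc, mul_inv_cancel₀ h1, one_mul]
  have h4 : ∑ t : A, α t = z + ((Nat.card A - 1 : ℕ) : ℂ) * c := by
    rw [← Finset.add_sum_erase _ _ (Finset.mem_univ (1 : A)), hz,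
      Finset.sum_congr rfl fun t ht => hc t (Finset.ne_of_mem_erase ht), Finset.sum_const,
      Finset.card_erase_of_mem (Finset.mem_univ _), Finset.card_univ, ← Nat.card_eq_fintype_card, nsmul_eq_mul]
  have h5 : ((Nat.card A - 1 : ℕ) : ℂ) ≠ 0 := by
    have : Nat.card A - 1 ≠ 0 := by omega
    exact_mod_cast this
  obtain ⟨t, ht⟩ : ∃ t : A, t ≠ 1 := by
    have : Nontrivial A := Finite.one_lt_card_iff_nontrivial.1 hA
    exact exists_ne 1
  refine Cfsg.Agent.Characters.GaloisBasic.exists_int_of_isIntegral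
    (by rw [← hc t ht]; exact Cfsg.Agent.OddOrderCharacters.PF13Cong.gen_integral hα t)
    ⟨((Nat.card A * n - z : ℤ) : ℚ) / ((Nat.card A - 1 : ℕ) : ℚ), ?_⟩
  push_cast
  rw [eq_div_iff h5]
  have h7 := h2.symm.trans h4
  linear_combination -h7

end const

section main

variable {G : Type u} [Group G] [Finite G] {p : ℕ} [hp : Fact p.Prime] {M : Ideal AlgInt} {x : G} {K : Subgroup G}

theorem Sit.comm (S : Sit p x K) {k : G} (hk : k ∈ K) : x * k = k * x :=
  (Subgroup.mem_centralizer_singleton_iff.1 (S.le hk)).symm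

/-- the projection -/
theorem Sit.proj (S : Sit p x K) : ∃ π : Subgroup.centralizer ({x} : Set G) →* K,
    (∀ k, π (Subgroup.inclusion S.le k) = k) ∧
    (∀ h : Subgroup.centralizer ({x} : Set G), ∃ i : ℤ, (h : G) = x ^ i * (π h : G)) ∧
    π.ker ≤ Subgroup.center (Subgroup.centralizer ({x} : Set G)) :=
  H627.PrincipalCount.exists_proj x S.ord K S.le S.nmem S.card

/-- the `p`-regular elements of the centralizer lie in `K` -/
theorem Sit.mem (S : Sit p x K) {h : G} (hh : h ∈ Subgroup.centralizer ({x} : Set G)) (ho : ¬ p ∣ orderOf h) : h ∈ K := by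
  obtain ⟨π, h1, h2, -⟩ := S.proj
  obtain ⟨i, hi⟩ := h2 ⟨h, hh⟩
  have e1 : h = x ^ i * (π ⟨h, hh⟩ : G) := hi
  have hc : Commute (x ^ i) (π ⟨h, hh⟩ : G) := (show Commute x (π ⟨h, hh⟩ : G) from S.comm (π ⟨h, hh⟩).2).zpow_left i
  have e2 : (x ^ i) ^ orderOf h * (π ⟨h, hh⟩ : G) ^ orderOf h = 1 := by
    rw [← hc.mul_pow, ← e1, pow_orderOf_eq_one]
  have e3 : x ^ (i * orderOf h) ∈ K := by
    have h3 : x ^ (i * orderOf h) = ((π ⟨h, hh⟩ : G) ^ orderOf h)⁻¹ := by
      rw [zpow_mul, zpow_natCast]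
      exact eq_inv_of_mul_eq_one_left e2
    rw [h3]
    exact K.inv_mem (K.pow_mem (π ⟨h, hh⟩).2 _)
  have hpr : p.Prime := hp.out
  have e4 : (p : ℤ) ∣ i * orderOf h := by
    by_contra hcon
    apply S.nmem
    have h5 : IsCoprime (p : ℤ) (i * orderOf h) := (Nat.prime_iff_prime_int.1 hpr).coprime_iff_not_dvd.2 hcon
    obtain ⟨a, b, hab⟩ := h5
    have h6 : x = (x ^ (i * orderOf h)) ^ b := by
      rw [← zpow_mul]
      have h7 : x ^ (a * (p : ℤ)) = 1 := by
        rw [mul_comm, zpow_mul, zpow_natCast, ← S.ord, pow_orderOf_eq_one, one_zpow]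
      calc x = x ^ (a * (p : ℤ) + b * (i * orderOf h)) := by rw [hab, zpow_one]
        _ = x ^ (i * orderOf h * b) := by rw [zpow_add, h7, one_mul, mul_comm]
    rw [h6]
    exact K.zpow_mem e3 b
  have e5 : (p : ℤ) ∣ i := by
    rcases (Nat.prime_iff_prime_int.1 hpr).dvd_mul.1 e4 with h6 | h6
    · exact h6
    · exact absurd (by exact_mod_cast h6) ho
  obtain ⟨j, rfl⟩ := e5
  have e6 : x ^ ((p : ℤ) * j) = 1 := by
    rw [zpow_mul, zpow_natCast, ← S.ord, pow_orderOf_eq_one, one_zpow]
  rw [e1, e6, one_mul]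
  exact (π ⟨h, hh⟩).2

variable [Fintype K] {e m : ℕ} {u : Fin e → IrrCharacter K} {s : Fin e → ℤ} {Φ : Fin e → K → ℂ}

/-- class functions of `K` are invariant under the centralizer -/
theorem Sit.inv (S : Sit p x K) {θ : K → ℂ} (hθ : IsClassFunction K θ) {h : G}
    (hh : h ∈ Subgroup.centralizer ({x} : Set G)) {k k' : K} (hk : h * k * h⁻¹ = (k' : G)) : θ k' = θ k := by
  obtain ⟨π, h1, h2, -⟩ := S.proj
  obtain ⟨i, hi⟩ := h2 ⟨h, hh⟩
  have h2 : (k' : G) = (((π ⟨h, hh⟩) * k * (π ⟨h, hh⟩)⁻¹ : K) : G) := by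
    rw [← hk]
    have h3 : h = x ^ i * (π ⟨h, hh⟩ : G) := hi
    have h4 : Commute x (((π ⟨h, hh⟩) * k * (π ⟨h, hh⟩)⁻¹ : K) : G) := S.comm ((π ⟨h, hh⟩) * k * (π ⟨h, hh⟩)⁻¹ : K).2
    have h5 := (h4.zpow_left i).eq
    calc h * k * h⁻¹ = x ^ i * (((π ⟨h, hh⟩) * k * (π ⟨h, hh⟩)⁻¹ : K) : G) * (x ^ i)⁻¹ := by
          conv_lhs => rw [h3]
          simp only [Subgroup.coe_mul, Subgroup.coe_inv, mul_inv_rev, mul_assoc]
      _ = _ := by rw [h5]; group
  have h3 : k' = (π ⟨h, hh⟩) * k * (π ⟨h, hh⟩)⁻¹ := Subtype.ext h2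
  rw [h3]
  exact hθ k (π ⟨h, hh⟩)

/-- the restriction of a member of the principal block of the centralizer -/
theorem Loc.span_of (L : Loc p M K e m u s Φ) (ψ : IrrCharacter K) (hψ : ψ ∈ principalBlock M K) :
    ∃ b : Fin e → ℂ, ∀ y : K, ¬ p ∣ orderOf y → (ψ : K → ℂ) y = ∑ i, b i * (u i : K → ℂ) y := by
  classical
  obtain ⟨d, hd, h⟩ := L.exc
  have hdd : (d : ℂ) * d = 1 := by
    rcases hd with h | h <;> rw [h] <;> norm_num
  rcases h ψ hψ with ⟨i, rfl⟩ | h1
  · refine ⟨fun j => if j = i then 1 else 0, fun y _ => ?_⟩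
    rw [Finset.sum_eq_single i]
    · show _ = (if i = i then (1 : ℂ) else 0) * _
      rw [if_pos rfl, one_mul]
    · intro j _ hne
      show (if j = i then (1 : ℂ) else 0) * _ = 0
      rw [if_neg hne, zero_mul]
    · intro h; exact absurd (Finset.mem_univ _) h
  · refine ⟨fun i => (d : ℂ) * s i, fun y hy => ?_⟩
    have h2 : (ψ : K → ℂ) y = (d : ℂ) * ((d : ℂ) * (ψ : K → ℂ) y) := by
      rw [← mul_assoc, hdd, one_mul]
    rw [h2, h1 y hy, Finset.mul_sum]
    exact Finset.sum_congr rfl fun i _ => by ring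

/-- **the values at `x y`** -/
theorem val_of (hM : IsPModular p M) (S : Sit p x K) (L : Loc p M K e m u s Φ) {χ : IrrCharacter G}
    (hχ : χ ∈ principalBlock M G) (k : K) (hk : ¬ p ∣ orderOf k) :
    (χ : G → ℂ) (x * k) = ∑ i, classInner (fun k : K => (χ : G → ℂ) (x * k)) (Φ i) * ((s i : ℂ) * (u i : K → ℂ) k) := by
  classical
  have hx' : ∃ k : ℕ, orderOf x = p ^ k := ⟨1, by rw [S.ord, pow_one]⟩
  have hpr := S.proj
  have hSle := S.le
  set H := Subgroup.centralizer ({x} : Set G) with hH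
  obtain ⟨π, hπι, hπ, hker⟩ := hpr
  have := Fintype.ofFinite H
  have := finite_irr (G := H)
  have := Fintype.ofFinite (IrrCharacter H)
  have h1 : ∀ ξ : IrrCharacter H, ∃ b : Fin e → ℂ, ξ ∈ principalBlock M H →
      ∀ k : K, ¬ p ∣ orderOf k → (ξ : H → ℂ) (Subgroup.inclusion S.le k) =
        ∑ i, b i * (u i : K → ℂ) k := by
    intro ξ
    by_cases hξ : ξ ∈ principalBlock M H
    · obtain ⟨c, ψ, hψ, hc⟩ := Cfsg.Agent.H627.BlockRestrict.exists_restrict
        (Subgroup.inclusion S.le) π hπι hker ξ hξ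
      obtain ⟨b, hb⟩ := L.span_of ψ hψ
      refine ⟨fun i => c * b i, fun _ k hk => ?_⟩
      rw [hc, hb k hk, Finset.mul_sum]
      exact Finset.sum_congr rfl fun i _ => by ring
    · exact ⟨0, fun h => absurd h hξ⟩
  choose b hb using h1
  let B : Fin e → ℂ := fun i => ∑ ξ : IrrCharacter H with ξ ∈ principalBlock M H,
    classInner (fun c : H => (χ : G → ℂ) (x * (c : G))) (ξ : H → ℂ) * b ξ i
  have hf : ∀ k : K, ¬ p ∣ orderOf k → (χ : G → ℂ) (x * k) = ∑ i, B i * (u i : K → ℂ) k := by
    intro k hk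
    have hk' : ¬ p ∣ orderOf (Subgroup.inclusion S.le k) := by
      have h2 : orderOf (Subgroup.inclusion S.le k) = orderOf k :=
        orderOf_injective (Subgroup.inclusion S.le) (Subgroup.inclusion_injective S.le) k
      rwa [h2]
    have h2 := Cfsg.Agent.Blocks.PrincipalInflate.section_eq hM x hx' (H := H) hH hχ
      (Subgroup.inclusion S.le k) hk'
    have h3 : ((Subgroup.inclusion S.le k : H) : G) = k := rfl
    rw [h3] at h2
    rw [h2]
    show _ = ∑ i, (∑ ξ : IrrCharacter H with ξ ∈ principalBlock M H,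
      classInner (fun c : H => (χ : G → ℂ) (x * (c : G))) (ξ : H → ℂ) * b ξ i) * (u i : K → ℂ) k
    simp only [Finset.sum_mul]
    rw [Finset.sum_comm]
    refine Finset.sum_congr rfl fun ξ hξ => ?_
    rw [hb ξ (Finset.mem_filter.1 hξ).2 k hk, Finset.mul_sum]
    refine Finset.sum_congr rfl fun i _ => ?_
    ring
  have hB : ∀ j, classInner (fun k : K => (χ : G → ℂ) (x * k)) (Φ j) = B j * s j := by
    intro j
    have h2 : classInner (fun k : K => (χ : G → ℂ) (x * k)) (Φ j) =
        classInner (∑ i, B i • (u i : K → ℂ)) (Φ j) := by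
      rw [classInner_def, classInner_def]
      congr 1
      refine Finset.sum_congr rfl fun k _ => ?_
      by_cases hk : p ∣ orderOf k
      · rw [L.van j k hk, map_zero, mul_zero, mul_zero]
      · rw [hf k hk, Finset.sum_apply]
        rfl
    rw [h2, classInner_sum_left]
    simp only [classInner_smul_left, L.dual]
    rw [Finset.sum_eq_single j]
    · rw [if_pos rfl]
    · intro i _ hne
      rw [if_neg hne, mul_zero]
    · intro h; exact absurd (Finset.mem_univ _) h
  rw [hf k hk]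
  refine Finset.sum_congr rfl fun i _ => ?_
  rw [hB]
  linear_combination (-(B i * (u i : K → ℂ) k)) * L.sq i

/-- **the other blocks** -/
theorem zero_of (hM : IsPModular p M) (S : Sit p x K) (L : Loc p M K e m u s Φ) {χ : IrrCharacter G}
    (hχ : χ ∉ principalBlock M G) (i : Fin e) : classInner (fun k : K => (χ : G → ℂ) (x * k)) (Φ i) = 0 := by
  classical
  have hMp := Blocks.Local.isPrime_of_isPModular hM
  have hx' : ∃ k : ℕ, orderOf x = p ^ k := ⟨1, by rw [S.ord, pow_one]⟩
  have hpr := S.proj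
  set H := Subgroup.centralizer ({x} : Set G) with hH
  obtain ⟨π, hπι, hπ, hker⟩ := hpr
  have := Fintype.ofFinite H
  have := Fintype.ofFinite G
  have := finite_irr (G := H)
  have := Fintype.ofFinite (IrrCharacter H)
  have hπs : Function.Surjective π := fun k => ⟨Subgroup.inclusion S.le k, hπι k⟩
  -- the function on `H`
  set Ψ : H → ℂ := fun h => Φ i (π h) with hΨ
  have h1 : Ψ ∈ charSpan (principalBlock M H) := by
    have h2 : ∀ θ : K → ℂ, θ ∈ charSpan (principalBlock M K) → (fun h : H => θ (π h)) ∈ charSpan (principalBlock M H) := by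
      intro θ hθ
      refine Submodule.span_induction ?_ ?_ ?_ ?_ hθ
      · rintro _ ⟨ξ, hξ, rfl⟩
        exact Submodule.subset_span ⟨_, H133.PB.mem_principalBlock_comp π hπs hξ, rfl⟩
      · exact Submodule.zero_mem _
      · intro a b _ _ ha hb
        exact Submodule.add_mem _ ha hb
      · intro c a _ ha
        exact Submodule.smul_mem _ c ha
    exact h2 _ (L.span i)
  have h2 : pReg p Ψ ∈ charSpan (principalBlock M H) :=
    map_pReg_le hM (isUnion_of_isPBlock Blocks.PrincipalSection.isPBlock_principalBlock) ⟨Ψ, h1, rfl⟩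
  -- the component of `χ(x ·)` in the principal block vanishes on the `p`-regular elements
  have h3 : ∀ y : H, ¬ p ∣ orderOf y → ∑ ξ : IrrCharacter H with ξ ∈ principalBlock M H,
      classInner (fun c : H => (χ : G → ℂ) (x * (c : G))) (ξ : H → ℂ) * (ξ : H → ℂ) y = 0 := by
    intro y hy
    have h4 := Blocks.CentralizerSum.sum_components hM x hx' hH
      (Blocks.PrincipalSection.isPBlock_principalBlock (M := M)) (A := principalBlock M H)
      (fun ξ => Blocks.PrincipalSection.mem_principalBlock_iff_induced hM x hx' hH ξ) y hy χ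
    rw [if_neg hχ] at h4
    exact h4
  set f : H → ℂ := fun c : H => (χ : G → ℂ) (x * (c : G)) with hf
  -- `⟨f, Θ⟩ = ⟨f₀, Θ⟩` for `Θ` in the span
  have h5 : ∀ Θ ∈ charSpan (principalBlock M H), classInner f Θ =
      classInner (∑ ξ : IrrCharacter H with ξ ∈ principalBlock M H, classInner f (ξ : H → ℂ) • (ξ : H → ℂ)) Θ := by
    intro Θ hΘ
    refine Submodule.span_induction ?_ ?_ ?_ ?_ hΘ
    · rintro _ ⟨η, hη, rfl⟩
      rw [classInner_sum_left, Finset.sum_eq_single_of_mem η (Finset.mem_filter.2 ⟨Finset.mem_univ _, hη⟩)]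
      · rw [classInner_smul_left, classInner_irr_self η.2, mul_one]
      · intro ξ _ hne
        rw [classInner_smul_left, classInner_irr_ne ξ.2 η.2 fun h => hne (Subtype.ext h), mul_zero]
    · rw [classInner_zero_right, classInner_zero_right]
    · intro a b _ _ ha hb
      rw [classInner_add_right, classInner_add_right, ha, hb]
    · intro c a _ ha
      rw [classInner_smul_right, classInner_smul_right, ha]
  have h6 : classInner f (pReg p Ψ) = 0 := by
    rw [h5 _ h2, classInner_def]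
    have h7 : ∀ y : H, (∑ ξ : IrrCharacter H with ξ ∈ principalBlock M H, classInner f (ξ : H → ℂ) • (ξ : H → ℂ)) y *
        conj (pReg p Ψ y) = 0 := by
      intro y
      by_cases hy : p ∣ orderOf y
      · rw [pReg_of_not (fun h => h hy), map_zero, mul_zero]
      · have h8 := h3 y hy
        rw [Finset.sum_apply]
        simp only [Pi.smul_apply, smul_eq_mul]
        rw [h8, zero_mul]
    rw [Finset.sum_eq_zero fun y _ => h7 y, mul_zero]
  -- comparison of the sums over `H` and `K`
  have h7 : ∑ y : H, f y * conj (pReg p Ψ y) = ∑ k : K, (χ : G → ℂ) (x * k) * conj (Φ i k) := by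
    symm
    refine Finset.sum_of_injOn (fun k : K => Subgroup.inclusion S.le k) ?_ ?_ ?_ ?_
    · intro a _ b _ hab
      exact Subgroup.inclusion_injective S.le hab
    · intro _ _
      exact Finset.mem_coe.2 (Finset.mem_univ _)
    · intro y _ hy
      have h8 : p ∣ orderOf y := by
        by_contra hcon
        apply hy
        have h9 : (y : G) ∈ K := S.mem y.2 (by rwa [Subgroup.orderOf_coe])
        exact ⟨⟨y, h9⟩, Finset.mem_coe.2 (Finset.mem_univ _), Subtype.ext rfl⟩
      rw [pReg_of_not (fun h => h h8), map_zero, mul_zero]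
    · intro k _
      have ho : orderOf (Subgroup.inclusion S.le k) = orderOf k :=
        orderOf_injective (Subgroup.inclusion S.le) (Subgroup.inclusion_injective S.le) k
      by_cases hk : p ∣ orderOf k
      · rw [L.van i k hk, pReg_of_not (fun h => h (by rw [ho]; exact hk)), map_zero, mul_zero, mul_zero]
      · have h8 : pReg p Ψ (Subgroup.inclusion S.le k) = Φ i k := by
          rw [pReg_of (show IsPRegular p _ from by rw [IsPRegular, ho]; exact hk), hΨ]
          show Φ i (π (Subgroup.inclusion S.le k)) = _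
          rw [hπι]
        rw [h8]
        rfl
  rw [classInner_def, ← h7]
  rw [classInner_def] at h6
  have h8 : (Nat.card H : ℂ)⁻¹ ≠ 0 := inv_ne_zero (by exact_mod_cast Nat.card_pos.ne')
  rw [(mul_eq_zero.1 h6).resolve_left h8, mul_zero]

/-- **integrality** -/
theorem int_of (S : Sit p x K) (L : Loc p M K e m u s Φ)
    (hinv : ∀ k : ℕ, ¬ p ∣ k → ∃ g : G, g * x * g⁻¹ = x ^ k ∧
      ∀ i (y y' : K), ¬ p ∣ orderOf y → g * y * g⁻¹ = (y' : G) → (u i : K → ℂ) y' = (u i : K → ℂ) y)
    (χ : IrrCharacter G) (i : Fin e) : ∃ z : ℤ, classInner (fun k : K => (χ : G → ℂ) (x * k)) (Φ i) = z := by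
  classical
  set A := Subgroup.zpowers x with hA
  let : Fintype A := Fintype.ofFinite A
  have hAc : Nat.card A = p := by rw [Nat.card_zpowers, S.ord]
  have hAK : ∀ a ∈ A, ∀ k ∈ K, a * k = k * a := by
    rintro _ ⟨j, rfl⟩ k hk
    exact ((show Commute x k from S.comm hk).zpow_left j).eq
  have h1 := H627.SectionBound.gen_section A K hAK (gen_of_irr χ.2) (L.gen i)
  have h2 := int_of_const h1 (by rw [hAc]; exact hp.out.one_lt)
    (c := classInner (fun k : K => (χ : G → ℂ) (x * k)) (Φ i)) ?_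
  · exact h2
  · rintro ⟨t, ht⟩ ht1
    obtain ⟨j, hj⟩ : ∃ j : ℕ, x ^ j = t := by
      have h3 : t ∈ Submonoid.powers x := by
        have h4 := mem_powers_iff_mem_zpowers (x := x) (y := t)
        exact h4.2 ht
      obtain ⟨j, hj⟩ := h3
      exact ⟨j, hj⟩
    have hjp : ¬ p ∣ j := by
      rintro ⟨a, rfl⟩
      apply ht1
      apply Subtype.ext
      show t = 1
      rw [← hj, pow_mul, ← S.ord, pow_orderOf_eq_one, one_pow]
    obtain ⟨g, hg, hgu⟩ := hinv j hjp
    show classInner (fun k : K => (χ : G → ℂ) (t * k)) (Φ i) = _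
    rw [classInner_def, classInner_def]
    congr 1
    -- the map `k ↦ g⁻¹ k g` on the `p`-regular elements
    have hreg : ∀ θ : K → ℂ, ∑ k : K, θ k * conj (Φ i k) =
        ∑ k ∈ Finset.univ.filter (fun k : K => ¬ p ∣ orderOf k), θ k * conj (Φ i k) := by
      intro θ
      symm
      refine Finset.sum_subset (Finset.subset_univ _) fun k _ hk => ?_
      have h3 : p ∣ orderOf k := by
        by_contra hcon
        exact hk (Finset.mem_filter.2 ⟨Finset.mem_univ _, hcon⟩)
      rw [L.van i k h3, map_zero, mul_zero]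
    rw [hreg, hreg]
    have hxj : g * x = t * g := by
      rw [← hj, ← hg]; group
    have hcen : ∀ k : K, g * k * g⁻¹ ∈ Subgroup.centralizer ({x} : Set G) := by
      intro k
      rw [Subgroup.mem_centralizer_singleton_iff]
      -- commutes with `t`, a generator
      have h3 : Commute (x ^ j) (g * k * g⁻¹) := by
        rw [← hg]
        show g * x * g⁻¹ * (g * k * g⁻¹) = g * k * g⁻¹ * (g * x * g⁻¹)
        have h4 := S.comm k.2
        calc g * x * g⁻¹ * (g * k * g⁻¹) = g * (x * k) * g⁻¹ := by group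
          _ = g * (k * x) * g⁻¹ := by rw [h4]
          _ = _ := by group
      have h5 : (orderOf x).Coprime j := by
        rw [S.ord]
        exact (hp.out.coprime_iff_not_dvd).2 hjp
      obtain ⟨b, hb⟩ := exists_pow_eq_self_of_coprime (x := x) (n := j) h5.symm
      have h6 : Commute x (g * k * g⁻¹) := by
        rw [← hb]
        exact h3.pow_left b
      exact h6.eq.symm
    have hord : ∀ k : G, orderOf (g * k * g⁻¹) = orderOf k := fun k => (MulAut.conj g).orderOf_eq k
    symm
    refine Finset.sum_bij (fun (k : K) hk => (⟨g * k * g⁻¹, S.mem (hcen k) (by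
      rw [hord, Subgroup.orderOf_coe]
      exact (Finset.mem_filter.1 hk).2)⟩ : K)) ?_ ?_ ?_ ?_
    · intro k hk
      refine Finset.mem_filter.2 ⟨Finset.mem_univ _, ?_⟩
      rw [← Subgroup.orderOf_coe]
      show ¬ p ∣ orderOf (g * k * g⁻¹)
      rw [hord, Subgroup.orderOf_coe]
      exact (Finset.mem_filter.1 hk).2
    · intro a _ b _ hab
      have h3 : g * a * g⁻¹ = g * b * g⁻¹ := congrArg Subtype.val hab
      exact Subtype.ext (mul_left_cancel (mul_right_cancel h3))
    · intro b hb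
      have hb' := (Finset.mem_filter.1 hb).2
      have h3 : g⁻¹ * b * g ∈ Subgroup.centralizer ({x} : Set G) := by
        rw [Subgroup.mem_centralizer_singleton_iff]
        have h4 := S.comm b.2
        have h5 : (b : G) * t = t * b := by
          have h6 : Commute (x ^ j) (b : G) := (show Commute x (b : G) from h4).pow_left j
          rw [← hj]
          exact h6.eq.symm
        have h6 : g⁻¹ * t = x * g⁻¹ := by
          rw [inv_mul_eq_iff_eq_mul, ← mul_assoc, hxj, mul_inv_cancel_right]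
        calc g⁻¹ * b * g * x = g⁻¹ * b * (g * x) := by group
          _ = g⁻¹ * (b * t) * g := by rw [hxj]; group
          _ = g⁻¹ * t * b * g := by rw [h5]; group
          _ = x * (g⁻¹ * b * g) := by rw [h6]; group
      have h4 : g⁻¹ * b * g ∈ K := S.mem h3 (by
        have h5 : orderOf (g⁻¹ * b * g) = orderOf (b : G) := by
          have h6 := hord (g⁻¹ * b * g)
          rw [← h6]
          congr 1
          group
        rw [h5, Subgroup.orderOf_coe]
        exact hb')
      refine ⟨⟨g⁻¹ * b * g, h4⟩, ?_, ?_⟩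
      · refine Finset.mem_filter.2 ⟨Finset.mem_univ _, ?_⟩
        rw [← Subgroup.orderOf_coe]
        show ¬ p ∣ orderOf (g⁻¹ * b * g)
        have h5 : orderOf (g⁻¹ * b * g) = orderOf (b : G) := by
          have h6 := hord (g⁻¹ * b * g)
          rw [← h6]
          congr 1
          group
        rw [h5, Subgroup.orderOf_coe]
        exact hb'
      · apply Subtype.ext
        show g * (g⁻¹ * b * g) * g⁻¹ = b
        group
    · intro k hk
      have hk' := (Finset.mem_filter.1 hk).2
      have hko : ¬ p ∣ orderOf (⟨g * k * g⁻¹, S.mem (hcen k) (by rw [hord, Subgroup.orderOf_coe]; exact hk')⟩ : K) := by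
        rw [← Subgroup.orderOf_coe]
        show ¬ p ∣ orderOf (g * k * g⁻¹)
        rw [hord, Subgroup.orderOf_coe]
        exact hk'
      have h3 : (χ : G → ℂ) (t * (g * k * g⁻¹)) = (χ : G → ℂ) (x * k) := by
        have h4 : t * (g * k * g⁻¹) = g * (x * k) * g⁻¹ := by
          calc t * (g * k * g⁻¹) = t * g * k * g⁻¹ := by group
            _ = g * x * k * g⁻¹ := by rw [hxj]
            _ = _ := by group
        rw [h4]
        exact isIrr_isClassFunction χ.2 _ _
      have h4 : Φ i ⟨g * k * g⁻¹, S.mem (hcen k) (by rw [hord, Subgroup.orderOf_coe]; exact hk')⟩ = Φ i k := by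
        rw [L.reg i _ hko, L.reg i k hk', hgu i k _ hk' rfl]
        congr 2
        exact Finset.sum_congr rfl fun j _ => by rw [hgu j k _ hk' rfl]
      show (χ : G → ℂ) (x * k) * conj (Φ i k) = (χ : G → ℂ) (t * (g * k * g⁻¹)) * conj (Φ i _)
      rw [h3, h4]

/-- **The integral columns exist.** -/
theorem exists_cols (hM : IsPModular p M) (S : Sit p x K) (L : Loc p M K e m u s Φ)
    (hinv : ∀ k : ℕ, ¬ p ∣ k → ∃ g : G, g * x * g⁻¹ = x ^ k ∧
      ∀ i (y y' : K), ¬ p ∣ orderOf y → g * y * g⁻¹ = (y' : G) → (u i : K → ℂ) y' = (u i : K → ℂ) y) :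
    ∃ q : IrrCharacter G → Fin e → ℤ, Cols p M x K e m u s Φ q := by
  classical
  have hMp := Blocks.Local.isPrime_of_isPModular hM
  choose q hq using fun χ i => int_of S L hinv χ i
  have hx' : ∃ k : ℕ, orderOf x = p ^ k := ⟨1, by rw [S.ord, pow_one]⟩
  have hone : ¬ p ∣ orderOf (1 : K) := by
    rw [orderOf_one]; exact hp.out.one_lt.ne' ∘ Nat.dvd_one.1
  have hval : ∀ χ ∈ principalBlock M G, ∀ y : K, ¬ p ∣ orderOf y →
      (χ : G → ℂ) (x * y) = ∑ i, (q χ i : ℂ) * ((s i : ℂ) * (u i : K → ℂ) y) := by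
    intro χ hχ y hy
    rw [val_of hM S L hχ y hy]
    exact Finset.sum_congr rfl fun i _ => by rw [hq]
  refine ⟨q, ⟨hq, hval, ?_, ?_, ?_, ?_⟩⟩
  · intro χ hχ i
    have h1 := (hq χ i).symm.trans (zero_of hM S L hχ i)
    exact_mod_cast h1
  · -- the Gram matrix
    intro _ i j
    have := Fintype.ofFinite G
    have hpK : (Nat.card K : ℝ) ≠ 0 := by exact_mod_cast Nat.card_pos.ne'
    have hN : ∀ θ : K → ℂ, IsGeneralizedCharacter K θ → (∀ k : K, p ∣ orderOf k → θ k = 0) →
        ∑ χ : IrrCharacter G, ‖classInner (fun k : K => (χ : G → ℂ) (x * k)) θ‖ ^ 2 = p * (classInner θ θ).re := by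
      intro θ hθ hv
      rw [H627.SectionBound.sum_section p x hx' K S.le (fun y hy ho => S.mem hy ho) θ hv
        (fun h hh k k' hk => S.inv (gen_isClassFunction hθ) hh hk), S.card, Nat.cast_mul, mul_div_assoc, div_self hpK, mul_one]
    have h1 := hN _ (L.gen i) (L.van i)
    have h2 := hN _ (L.gen j) (L.van j)
    have h3 := hN _ (gen_add (L.gen i) (L.gen j)) (fun k hk => by
      rw [Pi.add_apply, L.van i k hk, L.van j k hk, add_zero])
    have e1 : ∀ χ : IrrCharacter G, ∀ i, ‖classInner (fun k : K => (χ : G → ℂ) (x * k)) (Φ i)‖ ^ 2 = ((q χ i * q χ i : ℤ) : ℝ) := by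
      intro χ i
      rw [hq, Complex.norm_intCast, sq_abs, sq, ← Int.cast_mul]
    have e2 : ∀ χ : IrrCharacter G, ‖classInner (fun k : K => (χ : G → ℂ) (x * k)) (Φ i + Φ j)‖ ^ 2 =
        (((q χ i + q χ j) * (q χ i + q χ j) : ℤ) : ℝ) := by
      intro χ
      rw [classInner_add_right, hq, hq, ← Int.cast_add, Complex.norm_intCast, sq_abs, sq, ← Int.cast_mul]
    simp only [e1] at h1 h2
    simp only [e2] at h3
    rw [classInner_add_left, classInner_add_right, classInner_add_right] at h3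
    simp only [L.gram] at h1 h2 h3
    have h4 : ∑ χ : IrrCharacter G, (((q χ i + q χ j) * (q χ i + q χ j) : ℤ) : ℝ) =
        ∑ χ : IrrCharacter G, ((q χ i * q χ i : ℤ) : ℝ) + ∑ χ : IrrCharacter G, ((q χ j * q χ j : ℤ) : ℝ) +
          2 * ∑ χ : IrrCharacter G, ((q χ i * q χ j : ℤ) : ℝ) := by
      rw [Finset.mul_sum, ← Finset.sum_add_distrib, ← Finset.sum_add_distrib]
      refine Finset.sum_congr rfl fun χ _ => ?_
      push_cast
      ring
    rw [h4, h1, h2] at h3
    have h5 : ((∑ χ : IrrCharacter G, q χ i * q χ j : ℤ) : ℝ) = ((p * ((if i = j then 1 else 0) + m) : ℤ) : ℝ) := by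
      push_cast
      push_cast at h3
      by_cases hij : i = j
      · subst hij
        simp only [if_true, Complex.add_re, Complex.one_re, Complex.natCast_re] at h3 ⊢
        linarith
      · have hji : ¬ j = i := fun h => hij h.symm
        simp only [if_neg hij, if_neg hji, Complex.add_re, Complex.one_re, Complex.zero_re, Complex.natCast_re] at h3 ⊢
        linarith
    exact_mod_cast h5
  · -- the congruence at `y = 1`
    intro χ hχ
    obtain ⟨z, hz⟩ := L.sg
    have h1 := hval χ hχ 1 hone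
    rw [Subgroup.coe_one, mul_one] at h1
    have h2 : ∀ i, (p : ℤ) ∣ charDegree (u i : K → ℂ) - s i := by
      intro i
      have h3 := CharactersDeep.ModCongr.memLocalIdeal_character_sub hM (u i).2 z z
        (Blocks.PPart.isPPart_of_isPGroup ⟨1, by rw [hz, pow_one]⟩)
      rw [inv_mul_cancel, L.sing i z (by rw [hz]), Blocks.Basic.irr_one_eq_charDegree (u i).2] at h3
      have h4 : ((s i : ℂ) - (charDegree (u i : K → ℂ) : ℂ)) = ((s i - charDegree (u i : K → ℂ) : ℤ) : ℂ) := by
        push_cast; rfl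
      rw [h4, Blocks.Local.memLocalIdeal_intCast_iff hM] at h3
      rw [← dvd_neg, neg_sub]
      exact h3
    have h3 := CharactersDeep.ModCongr.memLocalIdeal_character_sub hM χ.2 x x (Blocks.PPart.isPPart_of_isPGroup hx')
    rw [inv_mul_cancel, h1, Blocks.Basic.irr_one_eq_charDegree χ.2] at h3
    have h4 : (∑ i, (q χ i : ℂ) * ((s i : ℂ) * (u i : K → ℂ) 1)) - (charDegree (χ : G → ℂ) : ℂ) =
        ((∑ i, q χ i * (s i * charDegree (u i : K → ℂ)) - charDegree (χ : G → ℂ) : ℤ) : ℂ) := by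
      push_cast
      congr 1
      exact Finset.sum_congr rfl fun i _ => by rw [Blocks.Basic.irr_one_eq_charDegree (u i).2]
    rw [h4, Blocks.Local.memLocalIdeal_intCast_iff hM] at h3
    have h5 : (p : ℤ) ∣ ∑ i, q χ i * (s i * charDegree (u i : K → ℂ)) - ∑ i, q χ i := by
      rw [← Finset.sum_sub_distrib]
      refine Finset.dvd_sum fun i _ => ?_
      have h6 : q χ i * (s i * charDegree (u i : K → ℂ)) - q χ i = q χ i * s i * (charDegree (u i : K → ℂ) - s i) := by
        rcases L.sgn i with h | h <;> rw [h] <;> ring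
      rw [h6]
      exact (h2 i).mul_left _
    have h6 : (p : ℤ) ∣ charDegree (χ : G → ℂ) - ∑ i, q χ i := by
      have h7 := dvd_sub h5 h3
      have h8 : (∑ i, q χ i * (s i * charDegree (u i : K → ℂ)) - ∑ i, q χ i) -
        (∑ i, q χ i * (s i * charDegree (u i : K → ℂ)) - charDegree (χ : G → ℂ)) =
          (charDegree (χ : G → ℂ) : ℤ) - ∑ i, q χ i := by ring
      rwa [h8] at h7
    exact (Int.modEq_iff_dvd).2 h6
  · -- the trivial character
    intro i₀ hi₀ χ hχ i
    have h1 : (fun k : K => (χ : G → ℂ) (x * k)) = (u i₀ : K → ℂ) := by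
      funext k
      rw [hχ, hi₀]
      rfl
    have h2 := hq χ i
    rw [h1, L.dual] at h2
    by_cases h : i = i₀
    · rw [if_pos h]
      rw [if_pos h.symm] at h2
      rw [← h]
      exact_mod_cast h2.symm
    · rw [if_neg h]
      rw [if_neg fun h' => h h'.symm] at h2
      exact_mod_cast h2.symm

theorem Sit.disj (S : Sit p x K) {j : ℤ} (h : x ^ j ∈ K) : x ^ j = 1 := by
  have hpr : p.Prime := hp.out
  have e4 : (p : ℤ) ∣ j := by
    by_contra hcon
    apply S.nmem
    have h5 : IsCoprime (p : ℤ) j := (Nat.prime_iff_prime_int.1 hpr).coprime_iff_not_dvd.2 hcon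
    obtain ⟨a, b, hab⟩ := h5
    have h6 : x = (x ^ j) ^ b := by
      rw [← zpow_mul]
      have h7 : x ^ (a * (p : ℤ)) = 1 := by
        rw [mul_comm, zpow_mul, zpow_natCast, ← S.ord, pow_orderOf_eq_one, one_zpow]
      calc x = x ^ (a * (p : ℤ) + b * j) := by rw [hab, zpow_one]
        _ = x ^ (j * b) := by rw [zpow_add, h7, one_mul, mul_comm]
    rw [h6]
    exact K.zpow_mem h b
  obtain ⟨i, rfl⟩ := e4
  rw [zpow_mul, zpow_natCast, ← S.ord, pow_orderOf_eq_one, one_zpow]

/-- conjugation by an element normalizing `⟨x⟩` -/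
theorem Sit.conj (S : Sit p x K) {k : ℕ} (hk : ¬ p ∣ k) {g : G} (hg : g * x * g⁻¹ = x ^ k) {h : G}
    (hh : h ∈ Subgroup.centralizer ({x} : Set G)) : g * h * g⁻¹ ∈ Subgroup.centralizer ({x} : Set G) := by
  rw [Subgroup.mem_centralizer_singleton_iff] at hh ⊢
  have h3 : Commute (x ^ k) (g * h * g⁻¹) := by
    rw [← hg]
    show g * x * g⁻¹ * (g * h * g⁻¹) = g * h * g⁻¹ * (g * x * g⁻¹)
    calc g * x * g⁻¹ * (g * h * g⁻¹) = g * (x * h) * g⁻¹ := by group
      _ = g * (h * x) * g⁻¹ := by rw [hh]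
      _ = _ := by group
  have h5 : (orderOf x).Coprime k := by
    rw [S.ord]
    exact (hp.out.coprime_iff_not_dvd).2 hk
  obtain ⟨b, hb⟩ := exists_pow_eq_self_of_coprime (x := x) (n := k) h5.symm
  have h6 : Commute x (g * h * g⁻¹) := by
    rw [← hb]
    exact h3.pow_left b
  exact h6.eq.symm

/-- the automorphism of `K` induced by an element normalizing `⟨x⟩` -/
theorem Sit.exists_aut (S : Sit p x K) {k : ℕ} (hk : ¬ p ∣ k) {g : G} (hg : g * x * g⁻¹ = x ^ k) :
    ∃ τ : K →* K, Function.Surjective τ ∧ ∀ y y' : K, g * y * g⁻¹ = (y' : G) → τ y = y' := by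
  have hpr := S.proj
  have hcj : ∀ y : K, g * y * g⁻¹ ∈ Subgroup.centralizer ({x} : Set G) := fun y => S.conj hk hg (S.le y.2)
  obtain ⟨π, h1, h2, -⟩ := hpr
  let c : K →* Subgroup.centralizer ({x} : Set G) :=
    { toFun := fun y => ⟨g * y * g⁻¹, hcj y⟩
      map_one' := by
        apply Subtype.ext
        show g * ((1 : K) : G) * g⁻¹ = 1
        rw [Subgroup.coe_one, mul_one, mul_inv_cancel]
      map_mul' := fun a b => by
        apply Subtype.ext
        show g * ((a * b : K) : G) * g⁻¹ = (g * a * g⁻¹) * (g * b * g⁻¹)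
        rw [Subgroup.coe_mul]
        group }
  have hinj : Function.Injective (π.comp c) := by
    rw [injective_iff_map_eq_one]
    intro y hy
    obtain ⟨i, hi⟩ := h2 (c y)
    have h3 : g * y * g⁻¹ = x ^ i := by
      have h4 : π (c y) = 1 := hy
      rw [h4, Subgroup.coe_one, mul_one] at hi
      exact hi
    obtain ⟨b, hb⟩ := exists_pow_eq_self_of_coprime (x := x) (n := k)
      (by rw [S.ord]; exact ((hp.out.coprime_iff_not_dvd).2 hk).symm)
    have h4 : g⁻¹ * x * g = x ^ b := by
      have h5 : x = g * x ^ b * g⁻¹ := by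
        conv_lhs => rw [← hb, ← hg]
        exact conj_pow
      calc g⁻¹ * x * g = g⁻¹ * (g * x ^ b * g⁻¹) * g := by rw [← h5]
        _ = x ^ b := by group
    have h5 : (y : G) = x ^ ((b : ℤ) * i) := by
      calc (y : G) = g⁻¹ * (g * y * g⁻¹) * g := by group
        _ = g⁻¹ * x ^ i * g := by rw [h3]
        _ = (g⁻¹ * x * g) ^ i := by
            have h6 := conj_zpow (i := i) (a := g⁻¹) (b := x)
            rw [inv_inv] at h6
            exact h6.symm
        _ = _ := by rw [h4, zpow_mul, zpow_natCast]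
    have h6 : x ^ ((b : ℤ) * i) ∈ K := h5 ▸ y.2
    exact Subtype.ext (h5.trans (S.disj h6))
  refine ⟨π.comp c, Finite.surjective_of_injective hinj, fun y y' hy => ?_⟩
  show π (c y) = y'
  rw [← h1 y']
  congr 1
  exact Subtype.ext hy

/-- **The hypothesis of `exists_cols`, if the `u i` are determined by their degrees in the principal block.** -/
theorem inv_of_deg (hM : IsPModular p M) (S : Sit p x K) (L : Loc p M K e m u s Φ)
    (hx : ∀ k : ℕ, ¬ p ∣ k → ∃ g : G, g * x * g⁻¹ = x ^ k)
    (hdeg : ∀ i, ∀ θ ∈ principalBlock M K, charDegree (θ : K → ℂ) = charDegree (u i : K → ℂ) → θ = u i) :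
    ∀ k : ℕ, ¬ p ∣ k → ∃ g : G, g * x * g⁻¹ = x ^ k ∧
      ∀ i (y y' : K), ¬ p ∣ orderOf y → g * y * g⁻¹ = (y' : G) → (u i : K → ℂ) y' = (u i : K → ℂ) y := by
  have hMp := Blocks.Local.isPrime_of_isPModular hM
  intro k hk
  obtain ⟨g, hg⟩ := hx k hk
  refine ⟨g, hg, fun i y y' _ hy => ?_⟩
  obtain ⟨τ, hτ, h1⟩ := S.exists_aut hk hg
  have h2 := H133.PB.mem_principalBlock_comp τ hτ (L.mem i)
  have h3 := hdeg i _ h2 (by
    show ⌊(((u i : K → ℂ) ∘ τ) 1).re⌋₊ = ⌊((u i : K → ℂ) 1).re⌋₊
    rw [Function.comp_apply, map_one])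
  have h4 : ((u i : K → ℂ) ∘ τ) y = (u i : K → ℂ) y := congrArg (fun θ : IrrCharacter K => (θ : K → ℂ) y) h3
  rw [← h4, Function.comp_apply, h1 y y' hy]

end main

end Cfsg.Agent.H608.Lb
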