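import Cfsg.Agent.H608.Lb.More
import Cfsg.Agent.H34.TI.Col11

/-!
# S4879, tool T2: degrees and one row (helper608)

* `Loc.exists_exc` : the `m` exceptional characters;
* `Loc.deg` : divisibilities, congruences, sum of squares;
* `Cols.row_le` : `p |q|² - m (Σ q)² ≤ p²`;
* `Cols.val_sq_le` : `χ(x)² ≤ |C_G(x)|`.
-/

set_option autoImplicit false
set_option linter.unusedSectionVars false
set_option linter.unusedVariables false

open scoped ComplexConjugate
open Cfsg Cfsg.Agent.Characters.Core Cfsg.Agent.OddOrderCharacters.VChar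

namespace Cfsg.Agent.H608.Lb

open Cfsg.Agent.H608.BlockRank

universe u

section loc

variable {p : ℕ} [hp : Fact p.Prime] {M : Ideal AlgInt} {K : Type u} [Group K] [Fintype K] {e m : ℕ}
  {u : Fin e → IrrCharacter K} {s : Fin e → ℤ} {Φ : Fin e → K → ℂ}

/-- **The exceptional characters.** -/
theorem Loc.exists_exc (L : Loc p M K e m u s Φ) : ∃ (X : Finset (IrrCharacter K)) (d : ℤ), (d = 1 ∨ d = -1) ∧
    X.card = m ∧ (∀ θ ∈ X, θ ∈ principalBlock M K) ∧ (∀ θ ∈ X, ∀ i, θ ≠ u i) ∧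
    ∀ θ ∈ X, ∀ y : K, ¬ p ∣ orderOf y → (d : ℂ) * (θ : K → ℂ) y = ∑ i, (s i : ℂ) * (u i : K → ℂ) y := by
  classical
  have := finite_irr (G := K)
  have := Fintype.ofFinite (IrrCharacter K)
  have hpp : p.Prime := hp.out
  obtain ⟨i0, h1, h2⟩ := L.one
  have hm0 : 0 < m := by
    rcases Nat.eq_zero_or_pos m with h | h
    · have h3 := L.em
      rw [h, mul_zero] at h3
      have := hpp.two_le
      omega
    · exact h
  have hone : ¬ p ∣ orderOf (1 : K) := by
    rw [orderOf_one]; exact hpp.one_lt.ne' ∘ Nat.dvd_one.1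
  obtain ⟨d, hd, hexc⟩ := L.exc
  have hdd : (d : ℂ) * d = 1 := by
    rcases hd with h | h <;> rw [h] <;> norm_num
  have hddZ : d * d = 1 := by
    rcases hd with h | h <;> rw [h] <;> norm_num
  set E : K → ℂ := Φ i0 - (s i0 : ℂ) • (u i0 : K → ℂ) with hE
  have hgE : IsGeneralizedCharacter K E := gen_sub (L.gen i0) (gen_intCast_smul _ (gen_of_irr (u i0).2))
  have hirr : ∀ χ ψ : IrrCharacter K, classInner (χ : K → ℂ) (ψ : K → ℂ) = if χ = ψ then 1 else 0 := by
    intro χ ψ
    rw [classInner_irr χ.2 ψ.2]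
    simp only [Subtype.ext_iff]
  have hΦu : ∀ j, classInner (Φ i0) (u j : K → ℂ) = if j = i0 then (s i0 : ℂ) else 0 := by
    intro j
    rw [gen_inner_comm (L.gen i0) (gen_of_irr (u j).2), L.dual]
  have hEu : ∀ j, classInner E (u j : K → ℂ) = 0 := by
    intro j
    rw [hE, classInner_sub_left, classInner_smul_left, hΦu, hirr]
    by_cases hj : j = i0
    · subst hj; simp
    · rw [if_neg hj, if_neg (fun h => hj (L.inj h).symm), mul_zero, sub_zero]
  have hEE : classInner E E = m := by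
    have h3 : classInner E E = classInner E (Φ i0) := by
      conv_lhs => rw [hE]
      rw [← hE]
      have h4 : classInner E ((s i0 : ℂ) • (u i0 : K → ℂ)) = 0 := by
        rw [classInner_smul_right, hEu, mul_zero]
      have h5 : classInner E (Φ i0 - (s i0 : ℂ) • (u i0 : K → ℂ)) = classInner E (Φ i0) - 0 := by
        rw [classInner_sub_right, h4]
      rw [hE] at h5 ⊢
      rw [h5, sub_zero]
    rw [h3, hE, classInner_sub_left, classInner_smul_left, L.gram, L.dual, if_pos rfl, if_pos rfl, L.sq]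
    ring
  -- the coefficients
  have hc : ∀ θ : IrrCharacter K, ∃ c : ℤ, classInner E (θ : K → ℂ) = c := fun θ => gen_inner hgE (gen_of_irr θ.2)
  choose c hc using hc
  have hsum : ∀ y, E y = ∑ θ : IrrCharacter K, (c θ : ℂ) * (θ : K → ℂ) y := by
    intro y
    conv_lhs => rw [gen_eq_sum hgE]
    rw [Finset.sum_apply]
    refine Finset.sum_congr rfl fun θ _ => ?_
    rw [Pi.smul_apply, smul_eq_mul, hc]
  have hnorm : ∑ θ : IrrCharacter K, c θ * c θ = m := by
    have h3 := classInner_eq_sum (gen_isClassFunction hgE) (gen_isClassFunction hgE)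
    rw [hEE] at h3
    have h4 : ((∑ θ : IrrCharacter K, c θ * c θ : ℤ) : ℂ) = ((m : ℤ) : ℂ) := by
      push_cast
      rw [h3]
      refine Finset.sum_congr rfl fun θ _ => ?_
      rw [hc, map_intCast]
    exact_mod_cast h4
  have hmemB : ∀ θ : IrrCharacter K, c θ ≠ 0 → θ ∈ principalBlock M K := by
    intro θ hθ
    by_contra hcon
    apply hθ
    have h3 : E ∈ charSpan (principalBlock M K) :=
      Submodule.sub_mem _ (L.span i0) (Submodule.smul_mem _ _ (Submodule.subset_span ⟨u i0, L.mem i0, rfl⟩))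
    have h4 : ∀ f ∈ charSpan (principalBlock M K), classInner f (θ : K → ℂ) = 0 := by
      intro f hf
      refine Submodule.span_induction ?_ ?_ ?_ ?_ hf
      · rintro _ ⟨ξ, hξ, rfl⟩
        exact classInner_irr_ne ξ.2 θ.2 fun h => hcon ((Subtype.ext h : ξ = θ) ▸ hξ)
      · exact classInner_zero_left _
      · intro a b _ _ ha hb
        rw [classInner_add_left, ha, hb, add_zero]
      · intro r a _ ha
        rw [classInner_smul_left, ha, mul_zero]
    have h5 := h4 E h3
    rw [hc] at h5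
    exact_mod_cast h5
  have hne : ∀ θ : IrrCharacter K, c θ ≠ 0 → ∀ i, θ ≠ u i := by
    rintro θ hθ i rfl
    apply hθ
    have h3 := hc (u i)
    rw [hEu] at h3
    exact_mod_cast h3.symm
  have hval : ∀ θ : IrrCharacter K, c θ ≠ 0 → ∀ y : K, ¬ p ∣ orderOf y →
      (d : ℂ) * (θ : K → ℂ) y = ∑ i, (s i : ℂ) * (u i : K → ℂ) y := by
    intro θ hθ y hy
    rcases hexc θ (hmemB θ hθ) with ⟨i, h⟩ | h
    · exact absurd h (hne θ hθ i)
    · exact h y hy
  -- `Σ c = d m`
  set F : ℂ := ∑ i, (s i : ℂ) * (u i : K → ℂ) 1 with hF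
  have hE1 : E 1 = m * F := by
    have h3 := L.reg i0 1 hone
    show Φ i0 1 - (s i0 : ℂ) * (u i0 : K → ℂ) 1 = _
    rw [h3, hF]
    ring
  have hE1' : E 1 = (∑ θ : IrrCharacter K, (c θ : ℂ)) * d * F := by
    rw [hsum, Finset.sum_mul, Finset.sum_mul]
    refine Finset.sum_congr rfl fun θ _ => ?_
    by_cases hθ : c θ = 0
    · rw [hθ]; simp
    · have h3 := hval θ hθ 1 hone
      rw [hF, ← h3]
      linear_combination (-((c θ : ℂ) * (θ : K → ℂ) 1)) * hdd
  obtain ⟨θ₀, hθ₀⟩ : ∃ θ : IrrCharacter K, c θ ≠ 0 := by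
    by_contra hcon
    push Not at hcon
    rw [Finset.sum_eq_zero fun θ _ => by rw [hcon θ, mul_zero]] at hnorm
    have : m = 0 := by exact_mod_cast hnorm.symm
    omega
  have hF0 : F ≠ 0 := by
    intro h
    have h3 := hval θ₀ hθ₀ 1 hone
    rw [← hF, h] at h3
    rcases mul_eq_zero.1 h3 with h4 | h4
    · rw [h4, zero_mul] at hdd
      exact zero_ne_one hdd
    · exact isIrr_apply_one_ne_zero θ₀.2 h4
  have hcs : (∑ θ : IrrCharacter K, c θ) * d = m := by
    rw [hE1'] at hE1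
    have h3 := mul_right_cancel₀ hF0 hE1
    exact_mod_cast h3
  have hz : ∑ θ : IrrCharacter K, (c θ * c θ - d * c θ) = 0 := by
    rw [Finset.sum_sub_distrib, hnorm, ← Finset.mul_sum, mul_comm d, hcs, sub_self]
  have hnn : ∀ θ ∈ (Finset.univ : Finset (IrrCharacter K)), 0 ≤ c θ * c θ - d * c θ := by
    intro θ _
    rcases hd with h | h <;> rw [h]
    · rcases le_or_gt (c θ) 0 with h3 | h3
      · nlinarith
      · nlinarith
    · rcases le_or_gt (c θ) (-1) with h3 | h3
      · nlinarith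
      · nlinarith
  have hcz := (Finset.sum_eq_zero_iff_of_nonneg hnn).1 hz
  have hcd : ∀ θ : IrrCharacter K, c θ ≠ 0 → c θ = d := by
    intro θ hθ
    have h3 := hcz θ (Finset.mem_univ _)
    have h4 : c θ * (c θ - d) = 0 := by linear_combination h3
    have h5 := (mul_eq_zero.1 h4).resolve_left hθ
    linarith
  refine ⟨Finset.univ.filter fun θ => c θ ≠ 0, d, hd, ?_, ?_, ?_, ?_⟩
  · have h3 : ∑ θ : IrrCharacter K, c θ * c θ = ∑ θ : IrrCharacter K with c θ ≠ 0, (1 : ℤ) := by
      rw [Finset.sum_filter]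
      refine Finset.sum_congr rfl fun θ _ => ?_
      split_ifs with h
      · rw [hcd θ h, hddZ]
      · rw [not_not.1 h, mul_zero]
    rw [hnorm, Finset.sum_const, nsmul_eq_mul, mul_one] at h3
    exact_mod_cast h3.symm
  · exact fun θ hθ => hmemB θ (Finset.mem_filter.1 hθ).2
  · exact fun θ hθ => hne θ (Finset.mem_filter.1 hθ).2
  · exact fun θ hθ => hval θ (Finset.mem_filter.1 hθ).2

/-- the congruence of the degrees -/
theorem Loc.deg_cong (L : Loc p M K e m u s Φ) (hM : IsPModular p M) (i : Fin e) :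
    (p : ℤ) ∣ charDegree (u i : K → ℂ) - s i := by
  obtain ⟨z, hz⟩ := L.sg
  have h3 := CharactersDeep.ModCongr.memLocalIdeal_character_sub hM (u i).2 z z
    (Blocks.PPart.isPPart_of_isPGroup ⟨1, by rw [hz, pow_one]⟩)
  rw [inv_mul_cancel, L.sing i z (by rw [hz]), Blocks.Basic.irr_one_eq_charDegree (u i).2] at h3
  have h4 : ((s i : ℂ) - (charDegree (u i : K → ℂ) : ℂ)) = ((s i - charDegree (u i : K → ℂ) : ℤ) : ℂ) := by
    push_cast; rfl
  rw [h4, Blocks.Local.memLocalIdeal_intCast_iff hM] at h3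
  rw [← dvd_neg, neg_sub]
  exact h3

/-- **The degrees.** -/
theorem Loc.deg (L : Loc p M K e m u s Φ) (hM : IsPModular p M) :
    (∀ i, charDegree (u i : K → ℂ) ∣ Nat.card K) ∧ (∀ i, 0 < charDegree (u i : K → ℂ)) ∧
    (∀ i, (p : ℤ) ∣ charDegree (u i : K → ℂ) - s i) ∧
    ∃ (f : ℕ) (d : ℤ), (d = 1 ∨ d = -1) ∧ 0 < f ∧ f ∣ Nat.card K ∧
      (∑ i, s i * (charDegree (u i : K → ℂ) : ℤ)) = d * f ∧ (p : ℤ) ∣ d * f - e ∧
      ∑ i, charDegree (u i : K → ℂ) ^ 2 + m * f ^ 2 ≤ Nat.card K := by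
  classical
  have := finite_irr (G := K)
  have := Fintype.ofFinite (IrrCharacter K)
  have hpp : p.Prime := hp.out
  have hone : ¬ p ∣ orderOf (1 : K) := by
    rw [orderOf_one]; exact hpp.one_lt.ne' ∘ Nat.dvd_one.1
  refine ⟨fun i => Blocks.CyclicUpper.charDegree_dvd (u i).2, fun i => Blocks.Basic.charDegree_pos (u i).2,
    L.deg_cong hM, ?_⟩
  obtain ⟨X, d, hd, hX, hXB, hXu, hXv⟩ := L.exists_exc
  have hm0 : 0 < m := by
    rcases Nat.eq_zero_or_pos m with h | h
    · have h3 := L.em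
      rw [h, mul_zero] at h3
      have := hpp.two_le
      omega
    · exact h
  obtain ⟨θ₀, hθ₀⟩ : X.Nonempty := Finset.card_pos.1 (by rw [hX]; exact hm0)
  have hdd : (d : ℤ) * d = 1 := by
    rcases hd with h | h <;> rw [h] <;> norm_num
  have hv : ∀ θ ∈ X, d * (charDegree (θ : K → ℂ) : ℤ) = ∑ i, s i * (charDegree (u i : K → ℂ) : ℤ) := by
    intro θ hθ
    have h1 := hXv θ hθ 1 hone
    rw [Blocks.Basic.irr_one_eq_charDegree θ.2,
      Finset.sum_congr rfl fun i _ => by rw [Blocks.Basic.irr_one_eq_charDegree (u i).2]] at h1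
    exact_mod_cast h1
  have hdeg : ∀ θ ∈ X, charDegree (θ : K → ℂ) = charDegree (θ₀ : K → ℂ) := by
    intro θ hθ
    have h1 := (hv θ hθ).trans (hv θ₀ hθ₀).symm
    have h2 : (d * d) * (charDegree (θ : K → ℂ) : ℤ) = (d * d) * (charDegree (θ₀ : K → ℂ) : ℤ) := by
      rw [mul_assoc, h1, mul_assoc]
    rw [hdd, one_mul, one_mul] at h2
    exact_mod_cast h2
  refine ⟨charDegree (θ₀ : K → ℂ), d, hd, Blocks.Basic.charDegree_pos θ₀.2, Blocks.CyclicUpper.charDegree_dvd θ₀.2,
    (hv θ₀ hθ₀).symm, ?_, ?_⟩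
  · rw [hv θ₀ hθ₀]
    have h1 : (∑ i, s i * (charDegree (u i : K → ℂ) : ℤ)) - (e : ℤ) =
        ∑ i : Fin e, s i * ((charDegree (u i : K → ℂ) : ℤ) - s i) := by
      have h2 : ∀ i : Fin e, s i * ((charDegree (u i : K → ℂ) : ℤ) - s i) = s i * (charDegree (u i : K → ℂ) : ℤ) - 1 := by
        intro i
        rcases L.sgn i with h | h <;> rw [h] <;> ring
      rw [Finset.sum_congr rfl fun i _ => h2 i, Finset.sum_sub_distrib, Finset.sum_const, Finset.card_univ,
        Fintype.card_fin, nsmul_eq_mul, mul_one]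
    rw [h1]
    exact Finset.dvd_sum fun i _ => (L.deg_cong hM i).mul_left _
  · -- the sum of the squares
    have hall : ∑ χ : IrrCharacter K, charDegree (χ : K → ℂ) ^ 2 = Nat.card K := by
      have h1 := (H34.TI.gram (1 : K) 1 (a := fun χ : IrrCharacter K => (charDegree (χ : K → ℂ) : ℤ))
        (b := fun χ : IrrCharacter K => (charDegree (χ : K → ℂ) : ℤ))
        (fun χ => by rw [Blocks.Basic.irr_one_eq_charDegree χ.2]; simp)
        (fun χ => by rw [Blocks.Basic.irr_one_eq_charDegree χ.2]; simp)).1 (IsConj.refl _)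
      have h2 : Subgroup.centralizer ({1} : Set K) = ⊤ := by
        ext g; simp [Subgroup.mem_centralizer_singleton_iff]
      rw [h2, Nat.card_congr (Subgroup.topEquiv (G := K)).toEquiv] at h1
      have h3 : ∑ χ : IrrCharacter K, (charDegree (χ : K → ℂ) : ℤ) ^ 2 = Nat.card K := by
        rw [← h1]
        exact Finset.sum_congr rfl fun χ _ => by ring
      exact_mod_cast h3
    have h1 : ∑ i, charDegree (u i : K → ℂ) ^ 2 =
        ∑ χ ∈ Finset.univ.image u, charDegree (χ : K → ℂ) ^ 2 := by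
      rw [Finset.sum_image fun a _ b _ h => L.inj h]
    have h2 : m * charDegree (θ₀ : K → ℂ) ^ 2 = ∑ χ ∈ X, charDegree (χ : K → ℂ) ^ 2 := by
      rw [Finset.sum_congr rfl fun θ hθ => by rw [hdeg θ hθ], Finset.sum_const, hX, smul_eq_mul]
    have hdis : Disjoint (Finset.univ.image u) X := by
      rw [Finset.disjoint_left]
      intro θ h3 h4
      obtain ⟨i, -, rfl⟩ := Finset.mem_image.1 h3
      exact hXu _ h4 i rfl
    rw [h1, h2, ← Finset.sum_union hdis, ← hall]
    exact Finset.sum_le_sum_of_subset (Finset.subset_univ _)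

end loc

section cols

variable {G : Type u} [Group G] [Finite G] {p : ℕ} [hp : Fact p.Prime] {M : Ideal AlgInt} {x : G} {K : Subgroup G}
variable [Fintype K] {e m : ℕ} {u : Fin e → IrrCharacter K} {s : Fin e → ℤ} {Φ : Fin e → K → ℂ}

/-- **One row** -/
theorem Cols.row_le (L : Loc p M K e m u s Φ) {q : IrrCharacter G → Fin e → ℤ}
    (C : Cols p M x K e m u s Φ q) (χ : IrrCharacter G) :
    (p : ℤ) * ∑ j, q χ j ^ 2 - m * (∑ j, q χ j) ^ 2 ≤ (p : ℤ) ^ 2 := by
  classical
  have := finite_irr (G := G)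
  have := Fintype.ofFinite (IrrCharacter G)
  have hpp : p.Prime := hp.out
  have hem : (e : ℤ) * m = p - 1 := by
    have h := L.em
    have h2 := hpp.one_lt
    have h3 : (((e * m : ℕ)) : ℤ) = ((p - 1 : ℕ) : ℤ) := by rw [h]
    push_cast [Nat.cast_sub h2.le] at h3
    exact h3
  set S := ∑ j, q χ j with hS
  set A := ∑ j, q χ j ^ 2 with hA
  let w : Fin e → ℤ := fun j => p * q χ j - m * S
  have hw1 : ∑ j, w j = S := by
    show ∑ j, ((p : ℤ) * q χ j - m * S) = S
    rw [Finset.sum_sub_distrib, ← Finset.mul_sum, Finset.sum_const, Finset.card_univ, Fintype.card_fin, nsmul_eq_mul, ← hS]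
    linear_combination (-S) * hem
  have hw2 : ∑ j, w j * w j = (p : ℤ) ^ 2 * A - 2 * p * m * S ^ 2 + e * m ^ 2 * S ^ 2 := by
    have h1 : ∀ j, w j * w j = (p : ℤ) ^ 2 * q χ j ^ 2 - 2 * p * m * S * q χ j + m ^ 2 * S ^ 2 := fun j => by
      show ((p : ℤ) * q χ j - m * S) * ((p : ℤ) * q χ j - m * S) = _
      ring
    rw [Finset.sum_congr rfl fun j _ => h1 j, Finset.sum_add_distrib, Finset.sum_sub_distrib, ← Finset.mul_sum,
      ← Finset.mul_sum, Finset.sum_const, Finset.card_univ, Fintype.card_fin, nsmul_eq_mul, ← hS, ← hA]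
    ring
  have hv : ∑ j, q χ j * w j = p * A - m * S ^ 2 := by
    have h1 : ∀ j, q χ j * w j = p * q χ j ^ 2 - m * S * q χ j := fun j => by
      show q χ j * ((p : ℤ) * q χ j - m * S) = _
      ring
    rw [Finset.sum_congr rfl fun j _ => h1 j, Finset.sum_sub_distrib, ← Finset.mul_sum, ← Finset.mul_sum, ← hS, ← hA]
    ring
  -- the norm of `Q w`
  have hN : ∑ ψ : IrrCharacter G, (∑ j, q ψ j * w j) ^ 2 = (p : ℤ) ^ 2 * (p * A - m * S ^ 2) := by
    have h1 : ∀ ψ : IrrCharacter G, (∑ j, q ψ j * w j) ^ 2 = ∑ i, ∑ j, w i * w j * (q ψ i * q ψ j) := by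
      intro ψ
      rw [sq, Finset.sum_mul_sum]
      refine Finset.sum_congr rfl fun i _ => Finset.sum_congr rfl fun j _ => ?_
      ring
    rw [Finset.sum_congr rfl fun ψ _ => h1 ψ, Finset.sum_comm]
    have h2 : ∀ i, ∑ ψ : IrrCharacter G, ∑ j, w i * w j * (q ψ i * q ψ j) =
        p * (w i * w i) + p * m * (w i * S) := by
      intro i
      rw [Finset.sum_comm]
      have h3 : ∀ j, ∑ ψ : IrrCharacter G, w i * w j * (q ψ i * q ψ j) =
          p * (if i = j then w i * w j else 0) + p * m * (w i * w j) := by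
        intro j
        rw [← Finset.mul_sum, C.gram i j]
        split_ifs <;> ring
      rw [Finset.sum_congr rfl fun j _ => h3 j, Finset.sum_add_distrib, ← Finset.mul_sum, ← Finset.mul_sum,
        Finset.sum_ite_eq Finset.univ i, if_pos (Finset.mem_univ _), ← Finset.mul_sum, hw1]
    rw [Finset.sum_congr rfl fun i _ => h2 i, Finset.sum_add_distrib, ← Finset.mul_sum, ← Finset.mul_sum,
      ← Finset.sum_mul, hw1, hw2]
    linear_combination (p * m * S ^ 2) * hem
  have hle : (p * A - m * S ^ 2) ^ 2 ≤ (p : ℤ) ^ 2 * (p * A - m * S ^ 2) := by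
    rw [← hN, ← hv]
    exact Finset.single_le_sum (f := fun ψ : IrrCharacter G => (∑ j, q ψ j * w j) ^ 2) (fun ψ _ => sq_nonneg _)
      (Finset.mem_univ χ)
  by_contra hcon
  push Not at hcon
  have h1 : 0 < (p : ℤ) * A - m * S ^ 2 := lt_of_le_of_lt (by positivity) hcon
  nlinarith

/-- the value at `x` -/
theorem Cols.val_sq_le {q : IrrCharacter G → Fin e → ℤ} (C : Cols p M x K e m u s Φ q) {χ : IrrCharacter G}
    (hχ : χ ∈ principalBlock M G) :
    (∑ j, q χ j * (s j * charDegree (u j : K → ℂ))) ^ 2 ≤ Nat.card (Subgroup.centralizer ({x} : Set G)) := by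
  classical
  have := Fintype.ofFinite G
  have := finite_irr (G := G)
  have := Fintype.ofFinite (IrrCharacter G)
  have h1 := S0145.sum_irr_mul_conj x x
  rw [if_pos (IsConj.refl _)] at h1
  have h2 : ∑ ψ : IrrCharacter G, Complex.normSq ((ψ : G → ℂ) x) =
      (Nat.card (Subgroup.centralizer ({x} : Set G)) : ℝ) := by
    have h3 : ((∑ ψ : IrrCharacter G, Complex.normSq ((ψ : G → ℂ) x) : ℝ) : ℂ) =
        ((Nat.card (Subgroup.centralizer ({x} : Set G)) : ℝ) : ℂ) := by
      push_cast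
      rw [← h1]
      exact Finset.sum_congr rfl fun ψ _ => (Complex.mul_conj _).symm
    exact_mod_cast h3
  have h3 := Finset.single_le_sum (f := fun ψ : IrrCharacter G => Complex.normSq ((ψ : G → ℂ) x))
    (fun ψ _ => Complex.normSq_nonneg _) (Finset.mem_univ χ)
  rw [h2] at h3
  simp only [C.val_one hχ, Complex.normSq_intCast] at h3
  have h4 : (((∑ j, q χ j * (s j * charDegree (u j : K → ℂ))) ^ 2 : ℤ) : ℝ) ≤
      ((Nat.card (Subgroup.centralizer ({x} : Set G)) : ℤ) : ℝ) := by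
    rw [sq]
    push_cast
    push_cast at h3
    exact h3
  exact_mod_cast h4

end cols

end Cfsg.Agent.H608.Lb
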