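import Cfsg.Agent.H627.PrincipalFamily
import Cfsg.Agent.SmallSimple.TheoremB
import Cfsg.Agent.H608.BlockRank

/-!
# S4879, tool T2: the principal block of a group with a Sylow `p`-subgroup of order `p` (helper608)

`Loc p M K e m u s Φ` : `u` the `e` nonexceptional characters, `s` their signs, `Φ i = s i u i + d Σ (exceptional)`.

* `exists_loc` : the data exist, `u` takes the value `1` at some index;
* `Loc.reindex` : renumbering.
-/

set_option autoImplicit false
set_option linter.unusedSectionVars false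
set_option linter.unusedVariables false

open scoped ComplexConjugate
open Cfsg Cfsg.Agent.Characters.Core Cfsg.Agent.OddOrderCharacters.VChar

namespace Cfsg.Agent.H608.Lb

open Cfsg.Agent.H608.BlockRank

universe u

/-- The principal `p`-block of `K`, Sylow `p`-subgroups of order `p`. -/
structure Loc (p : ℕ) (M : Ideal AlgInt) (K : Type u) [Group K] [Fintype K] (e m : ℕ) (u : Fin e → IrrCharacter K)
    (s : Fin e → ℤ) (Φ : Fin e → K → ℂ) : Prop where
  em : e * m = p - 1
  sg : ∃ z : K, orderOf z = p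
  inj : Function.Injective u
  mem : ∀ i, u i ∈ principalBlock M K
  sgn : ∀ i, s i = 1 ∨ s i = -1
  one : ∃ i, (u i : K → ℂ) = 1 ∧ s i = 1
  sing : ∀ i (k : K), p ∣ orderOf k → (u i : K → ℂ) k = s i
  gen : ∀ i, IsGeneralizedCharacter K (Φ i)
  van : ∀ i (k : K), p ∣ orderOf k → Φ i k = 0
  gram : ∀ i j, classInner (Φ i) (Φ j) = (if i = j then 1 else 0) + (m : ℂ)
  dual : ∀ i j, classInner (u i : K → ℂ) (Φ j) = if i = j then (s j : ℂ) else 0
  span : ∀ i, Φ i ∈ charSpan (principalBlock M K)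
  reg : ∀ i (y : K), ¬ p ∣ orderOf y → Φ i y = (s i : ℂ) * (u i : K → ℂ) y + (m : ℂ) * ∑ j, (s j : ℂ) * (u j : K → ℂ) y
  exc : ∃ d : ℤ, (d = 1 ∨ d = -1) ∧ ∀ θ ∈ principalBlock M K, (∃ i, θ = u i) ∨
    ∀ y : K, ¬ p ∣ orderOf y → (d : ℂ) * (θ : K → ℂ) y = ∑ i, (s i : ℂ) * (u i : K → ℂ) y

/-- **Existence.** -/
theorem exists_loc {K : Type u} [Group K] [Fintype K] (p : ℕ) [Fact p.Prime] (M : Ideal AlgInt) (hM : IsPModular p M)
    (hodd : p ≠ 2) (P : Sylow p K) (hP : Nat.card P = p) (e m : ℕ)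
    (he : (Subgroup.centralizer (P : Set K)).relIndex (Subgroup.normalizer (P : Set K)) = e) (hem : e * m = p - 1) :
    ∃ (u : Fin e → IrrCharacter K) (s : Fin e → ℤ) (Φ : Fin e → K → ℂ), Loc p M K e m u s Φ := by
  classical
  have hp : p.Prime := Fact.out
  have := finite_irr (G := K)
  have := Fintype.ofFinite (IrrCharacter K)
  obtain ⟨NE, X, ε, d, S, h1, hdis, hNE, hX, hε, hd, ⟨χ₁, hχ₁, hχ₁', hε₁⟩, h8, h9, h10, h11⟩ :=
    SmallSimple.TheoremB.theoremB p hodd M hM P hP e m he hem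
  have hp1 : 0 < p - 1 := by have := hp.two_le; omega
  have he0 : 0 < e := by
    rcases Nat.eq_zero_or_pos e with h | h
    · rw [h, zero_mul] at hem; omega
    · exact h
  have hm0 : 0 < m := by
    rcases Nat.eq_zero_or_pos m with h | h
    · rw [h, mul_zero] at hem; omega
    · exact h
  let σ : Fin e ≃ NE := (finCongr hNE.symm).trans NE.equivFin.symm
  let u : Fin e → IrrCharacter K := fun i => (σ i : IrrCharacter K)
  have huX : ∀ i, u i ∈ NE := fun i => (σ i).2
  have huinj : Function.Injective u := fun i j h => σ.injective (Subtype.ext h)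
  set T : K → ℂ := ∑ θ ∈ X, (θ : K → ℂ) with hT
  have hdd : (d : ℂ) * d = 1 := by
    rcases hd with h | h <;> rw [h] <;> norm_num
  have hεX : ∀ i, ((ε (u i) : ℤ) : ℂ) * (ε (u i) : ℂ) = 1 := by
    intro i
    rcases hε _ (huX i) with h | h <;> rw [h] <;> norm_num
  have hirr : ∀ χ ψ : IrrCharacter K, classInner (χ : K → ℂ) (ψ : K → ℂ) = if χ = ψ then 1 else 0 := by
    intro χ ψ
    rw [classInner_irr χ.2 ψ.2]
    simp only [Subtype.ext_iff]
  have huT : ∀ i, classInner (u i : K → ℂ) T = 0 := by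
    intro i
    rw [hT, classInner_sum_right]
    refine Finset.sum_eq_zero fun θ hθ => ?_
    rw [hirr, if_neg]
    intro h
    exact Finset.disjoint_left.1 hdis (huX i) (h ▸ hθ)
  have hTu : ∀ i, classInner T (u i : K → ℂ) = 0 := by
    intro i
    rw [← classInner_conj_symm, huT, map_zero]
  have hTT : classInner T T = m := by
    rw [hT, classInner_sum_left]
    have h6 : ∀ θ ∈ X, classInner (θ : K → ℂ) (∑ θ ∈ X, (θ : K → ℂ)) = 1 := by
      intro θ hθ
      rw [classInner_sum_right, Finset.sum_eq_single_of_mem θ hθ]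
      · rw [hirr, if_pos rfl]
      · intro θ' _ hne
        rw [hirr, if_neg fun h => hne h.symm]
    rw [Finset.sum_congr rfl h6, Finset.sum_const, hX, nsmul_eq_mul, mul_one]
  let Φ : Fin e → K → ℂ := fun i => ((ε (u i) : ℤ) : ℂ) • (u i : K → ℂ) + (d : ℂ) • T
  have huΦ : ∀ i j, classInner (u i : K → ℂ) (Φ j) = if i = j then ((ε (u j) : ℤ) : ℂ) else 0 := by
    intro i j
    show classInner (u i : K → ℂ) (((ε (u j) : ℤ) : ℂ) • (u j : K → ℂ) + (d : ℂ) • T) = _
    rw [classInner_add_right, classInner_smul_right, classInner_smul_right, huT, mul_zero,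
      add_zero, hirr]
    simp only [huinj.eq_iff]
    split_ifs with h
    · simp
    · simp
  have hTΦ : ∀ j, classInner T (Φ j) = (d : ℂ) * m := by
    intro j
    show classInner T (((ε (u j) : ℤ) : ℂ) • (u j : K → ℂ) + (d : ℂ) • T) = _
    rw [classInner_add_right, classInner_smul_right, classInner_smul_right, hTu, mul_zero,
      zero_add, hTT]
    simp
  -- values at `p`-singular elements
  have hval : ∀ k : K, p ∣ orderOf k → (∀ i, (u i : K → ℂ) k = (ε (u i) : ℂ)) := by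
    intro k hk i
    obtain ⟨g, x, y, hg, hx, hx1, hy, hyp⟩ := H627.PrincipalFamily.exists_conj P hP k hk
    rw [← h8 _ (huX i) x hx hx1 y hy hyp, ← hg]
    exact (isIrr_isClassFunction (u i).2 k g).symm
  obtain ⟨θ₀, hθ₀⟩ : X.Nonempty := Finset.card_pos.1 (by rw [hX]; exact hm0)
  have hone : ¬ p ∣ orderOf (1 : K) := by
    rw [orderOf_one]; exact hp.one_lt.ne' ∘ Nat.dvd_one.1
  have hNEsum : ∀ F : IrrCharacter K → ℂ, ∑ χ ∈ NE, F χ = ∑ i, F (u i) := by
    intro F
    rw [← Finset.sum_coe_sort NE F]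
    exact (Equiv.sum_comp σ (fun χ : NE => F χ)).symm
  have hBsum : ∀ F : IrrCharacter K → ℂ, ∑ᶠ χ ∈ principalBlock M K, F χ = ∑ χ ∈ NE, F χ + ∑ χ ∈ X, F χ := by
    intro F
    rw [← Finset.sum_union hdis]
    refine finsum_mem_eq_sum_of_inter_support_eq _ ?_
    ext χ
    simp only [Set.mem_inter_iff, Finset.coe_union, Set.mem_union, Finset.mem_coe, h1 χ]
  have hTval : ∀ k : K, p ∣ orderOf k → T k = -(d : ℂ) := by
    intro k hk
    have h6 := Cfsg.Agent.S0907.result p M hM (principalBlock M K)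
      Cfsg.Agent.Blocks.CyclicUpper.isPBlock_principal 1 k hone hk
    rw [hBsum, hNEsum] at h6
    have h7 : ∀ i, (u i : K → ℂ) 1 * conj ((u i : K → ℂ) k) = (ε (u i) : ℂ) * (u i : K → ℂ) 1 := by
      intro i
      rw [hval k hk i, map_intCast, mul_comm]
    have h8 : ∀ θ ∈ X, (θ : K → ℂ) 1 * conj ((θ : K → ℂ) k) = (θ₀ : K → ℂ) 1 * conj ((θ : K → ℂ) k) := by
      intro θ hθ
      have h12 := h11 θ hθ 1 hone
      have h13 := h11 θ₀ hθ₀ 1 hone
      have hd0 : (d : ℂ) ≠ 0 := fun h => by rw [h, zero_mul] at hdd; exact zero_ne_one hdd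
      rw [mul_left_cancel₀ hd0 (h12.symm.trans h13)]
    rw [Finset.sum_congr rfl fun i _ => h7 i, Finset.sum_congr rfl h8, ← Finset.mul_sum, ← map_sum] at h6
    have h9' := h11 _ hθ₀ 1 hone
    rw [hNEsum] at h9'
    rw [h9'] at h6
    have h10' : T k = ∑ θ ∈ X, (θ : K → ℂ) k := by
      rw [hT, Finset.sum_apply]
    rw [← h10'] at h6
    have hθ0 : (θ₀ : K → ℂ) 1 ≠ 0 := isIrr_apply_one_ne_zero θ₀.2
    have h11' : (θ₀ : K → ℂ) 1 * ((d : ℂ) + conj (T k)) = 0 := by
      rw [mul_add, mul_comm _ (d : ℂ)]; exact h6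
    have h12 := (mul_eq_zero.1 h11').resolve_left hθ0
    have h13 : conj (T k) = -(d : ℂ) := by
      rw [eq_neg_iff_add_eq_zero, add_comm]; exact h12
    have h14 := congrArg conj h13
    rw [Complex.conj_conj, map_neg, map_intCast] at h14
    exact h14
  have hmemB : ∀ i, u i ∈ principalBlock M K := fun i => (h1 _).2 (Or.inl (huX i))
  have hsg : ∃ z : K, orderOf z = p :=
    exists_prime_orderOf_dvd_card' p (by rw [← hP]; exact Subgroup.card_subgroup_dvd_card _)
  refine ⟨u, fun i => ε (u i), Φ, hem, hsg, huinj, hmemB, fun i => hε _ (huX i),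
    ⟨σ.symm ⟨χ₁, hχ₁⟩, ?_, ?_⟩, fun i k hk => hval k hk i, ?_, ?_, ?_, huΦ, ?_, ?_, ⟨d, hd, ?_⟩⟩
  · show ((σ (σ.symm ⟨χ₁, hχ₁⟩) : IrrCharacter K) : K → ℂ) = 1
    rw [Equiv.apply_symm_apply]
    exact hχ₁'
  · show ε (σ (σ.symm ⟨χ₁, hχ₁⟩) : IrrCharacter K) = 1
    rw [Equiv.apply_symm_apply]
    exact hε₁
  · intro i
    refine gen_add (gen_intCast_smul _ (gen_of_irr (u i).2)) (gen_intCast_smul _ ?_)
    exact gen_sum _ fun θ _ => gen_of_irr θ.2
  · intro i k hk
    show ((ε (u i) : ℤ) : ℂ) * (u i : K → ℂ) k + (d : ℂ) * T k = 0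
    rw [hval k hk i, hTval k hk, hεX, mul_neg, hdd]
    ring
  · intro i j
    show classInner (((ε (u i) : ℤ) : ℂ) • (u i : K → ℂ) + (d : ℂ) • T) (Φ j) = _
    rw [classInner_add_left, classInner_smul_left, classInner_smul_left, huΦ, hTΦ, ← mul_assoc, hdd,
      one_mul]
    congr 1
    split_ifs with h
    · rw [h]; exact hεX j
    · rw [mul_zero]
  · intro i
    refine Submodule.add_mem _ (Submodule.smul_mem _ _ (Submodule.subset_span ⟨u i, hmemB i, rfl⟩))
      (Submodule.smul_mem _ _ (Submodule.sum_mem _ fun θ hθ => Submodule.subset_span ⟨θ, (h1 _).2 (Or.inr hθ), rfl⟩))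
  · intro i y hy
    show ((ε (u i) : ℤ) : ℂ) * (u i : K → ℂ) y + (d : ℂ) * T y = _
    congr 1
    rw [hT, Finset.sum_apply, Finset.mul_sum, Finset.sum_congr rfl fun θ hθ => (h11 θ hθ y hy).symm, Finset.sum_const, hX,
      nsmul_eq_mul, hNEsum]
  · intro θ hθ
    rcases (h1 θ).1 hθ with h | h
    · left
      exact ⟨σ.symm ⟨θ, h⟩, by
        show θ = ((σ (σ.symm ⟨θ, h⟩) : NE) : IrrCharacter K)
        rw [Equiv.apply_symm_apply]⟩
    · right
      intro y hy
      rw [← h11 θ h y hy, hNEsum]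

variable {p : ℕ} {M : Ideal AlgInt} {K : Type u} [Group K] [Fintype K] {e m : ℕ} {u : Fin e → IrrCharacter K}
  {s : Fin e → ℤ} {Φ : Fin e → K → ℂ}

/-- **Renumbering.** -/
theorem Loc.reindex (L : Loc p M K e m u s Φ) (τ : Equiv.Perm (Fin e)) :
    Loc p M K e m (fun i => u (τ i)) (fun i => s (τ i)) (fun i => Φ (τ i)) where
  em := L.em
  sg := L.sg
  inj i j h := τ.injective (L.inj h)
  mem i := L.mem _
  sgn i := L.sgn _
  one := by
    obtain ⟨i, h⟩ := L.one
    exact ⟨τ.symm i, by simpa using h⟩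
  sing i := L.sing _
  gen i := L.gen _
  van i := L.van _
  gram i j := by
    rw [L.gram]
    simp only [τ.injective.eq_iff]
  dual i j := by
    rw [L.dual]
    simp only [τ.injective.eq_iff]
  span i := L.span _
  reg i y hy := by
    rw [L.reg _ y hy]
    congr 2
    exact (Equiv.sum_comp τ fun i => (s i : ℂ) * (u i : K → ℂ) y).symm
  exc := by
    obtain ⟨d, hd, h⟩ := L.exc
    refine ⟨d, hd, fun θ hθ => ?_⟩
    rcases h θ hθ with ⟨i, h1⟩ | h1
    · exact Or.inl ⟨τ.symm i, by simpa using h1⟩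
    · right
      intro y hy
      rw [h1 y hy]
      exact (Equiv.sum_comp τ fun i => (s i : ℂ) * (u i : K → ℂ) y).symm

theorem Loc.sq (L : Loc p M K e m u s Φ) (i : Fin e) : (s i : ℂ) * s i = 1 := by
  rcases L.sgn i with h | h <;> rw [h] <;> norm_num

end Cfsg.Agent.H608.Lb
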