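import Cfsg.Agent.H608.Lb.Cols
import Cfsg.Agent.H741.Lb.Defs
import Cfsg.Agent.S0051
import Cfsg.Agent.SmallSimple.SylowPrimeCount

/-!
# S4879, tool T2: complements (helper608)

* `Cols.qmat` : the matrix `QMat` of `H741/Lb/Defs.lean`;
* `rank_cent` : `l(B₀(C_G(x))) = e`;
* `Cols.cong_reg`, `Cols.cong_sq` : congruences modulo `p` and `p²`;
* `exists_sit`, `exists_loc'` : existence of `K` for elementary abelian Sylow subgroups of order `p²`.
-/

set_option autoImplicit false
set_option linter.unusedSectionVars false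
set_option linter.unusedVariables false

open scoped ComplexConjugate
open Cfsg Cfsg.Agent.Characters.Core Cfsg.Agent.OddOrderCharacters.VChar

namespace Cfsg.Agent.H608.Lb

open Cfsg.Agent.H608.BlockRank

universe u

section main

variable {G : Type u} [Group G] [Finite G] {p : ℕ} [hp : Fact p.Prime] {M : Ideal AlgInt} {x : G} {K : Subgroup G}
variable [Fintype K] {e m : ℕ} {u : Fin e → IrrCharacter K} {s : Fin e → ℤ} {Φ : Fin e → K → ℂ}

/-- independence of the signed nonexceptional characters on the `p`-regular elements of `K` -/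
theorem Loc.indep (L : Loc p M K e m u s Φ) (a : Fin e → ℂ)
    (ha : ∀ k : K, ¬ p ∣ orderOf k → ∑ j, a j * (u j : K → ℂ) k = 0) : a = 0 := by
  classical
  funext i
  have h1 : classInner (∑ j, a j • (u j : K → ℂ)) (Φ i) = 0 := by
    rw [classInner_def]
    have h2 : ∀ k : K, (∑ j, a j • (u j : K → ℂ)) k * conj (Φ i k) = 0 := by
      intro k
      by_cases hk : p ∣ orderOf k
      · rw [L.van i k hk, map_zero, mul_zero]
      · rw [Finset.sum_apply]
        have h3 := ha k hk
        simp only [Pi.smul_apply, smul_eq_mul]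
        rw [h3, zero_mul]
    rw [Finset.sum_eq_zero fun k _ => h2 k, mul_zero]
  rw [classInner_sum_left] at h1
  simp only [classInner_smul_left, L.dual] at h1
  rw [Finset.sum_eq_single i (fun j _ hne => by rw [if_neg hne, mul_zero])
    (fun h => absurd (Finset.mem_univ _) h), if_pos rfl] at h1
  have h2 : (s i : ℂ) ≠ 0 := fun h => by
    have := L.sq i
    rw [h, zero_mul] at this
    exact zero_ne_one this
  exact (mul_eq_zero.1 h1).resolve_right h2

/-- **The interface `QMat`.** -/
theorem Cols.qmat (hM : IsPModular p M) (S : Sit p x K) (L : Loc p M K e m u s Φ)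
    {q : IrrCharacter G → Fin e → ℤ} (C : Cols p M x K e m u s Φ q)
    (π : Subgroup.centralizer ({x} : Set G) →* K) (hπ : ∀ k, π (Subgroup.inclusion S.le k) = k) :
    Cfsg.Agent.H741.Lb.QMat p e m M x (fun j c => (s j : ℂ) * (u j : K → ℂ) (π c)) q := by
  classical
  have hreg : ∀ c : Subgroup.centralizer ({x} : Set G), ¬ p ∣ orderOf c → ∃ k : K, Subgroup.inclusion S.le k = c ∧
      ¬ p ∣ orderOf k := by
    intro c hc
    have h1 : (c : G) ∈ K := S.mem c.2 (by rwa [Subgroup.orderOf_coe])
    refine ⟨⟨c, h1⟩, Subtype.ext rfl, ?_⟩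
    have h2 : orderOf (⟨(c : G), h1⟩ : K) = orderOf c := by
      rw [← Subgroup.orderOf_coe, ← Subgroup.orderOf_coe c]
    rwa [h2]
  refine ⟨?_, ?_, ?_⟩
  · intro χ hχ c hc
    obtain ⟨k, rfl, hk⟩ := hreg c hc
    have h1 := C.val χ hχ k hk
    simp only [hπ]
    exact h1
  · intro a ha
    have h1 := L.indep (fun j => a j * s j) (fun k hk => by
      have h2 := ha (Subgroup.inclusion S.le k) (by
        rwa [orderOf_injective (Subgroup.inclusion S.le) (Subgroup.inclusion_injective S.le) k])
      simp only [hπ] at h2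
      rw [← h2]
      exact Finset.sum_congr rfl fun j _ => by ring)
    funext i
    have h2 : a i * s i = 0 := congrFun h1 i
    have h3 : a i = a i * s i * s i := by rw [mul_assoc, L.sq, mul_one]
    rw [h3, h2, zero_mul]
    rfl
  · intro i j
    have := finite_irr (G := G)
    have := Fintype.ofFinite (IrrCharacter G)
    have h1 : ∑ᶠ χ ∈ principalBlock M G, q χ i * q χ j = ∑ χ : IrrCharacter G, q χ i * q χ j := by
      rw [finsum_mem_eq_finite_toFinset_sum _ (Set.toFinite _)]
      refine Finset.sum_subset (Finset.subset_univ _) fun χ _ hχ => ?_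
      rw [C.zero χ (fun h => hχ ((Set.Finite.mem_toFinset _).2 h)) i, zero_mul]
    rw [h1, C.gram]
    split_ifs <;> ring

/-- **The rank of the principal block of the centralizer.** -/
theorem rank_cent (hM : IsPModular p M) (S : Sit p x K) (L : Loc p M K e m u s Φ) :
    blockRank p (principalBlock M (Subgroup.centralizer ({x} : Set G))) = e := by
  classical
  have hMp := Blocks.Local.isPrime_of_isPModular hM
  obtain ⟨π, hπι, hπ, hker⟩ := S.proj
  have hπs : Function.Surjective π := fun k => ⟨Subgroup.inclusion S.le k, hπι k⟩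
  let b : Fin e → Subgroup.centralizer ({x} : Set G) → ℂ := fun i => pRegularPart p ((u i : K → ℂ) ∘ π)
  have hreg : ∀ c : Subgroup.centralizer ({x} : Set G), ¬ p ∣ orderOf c → ∃ k : K, Subgroup.inclusion S.le k = c ∧
      ¬ p ∣ orderOf k := by
    intro c hc
    have h1 : (c : G) ∈ K := S.mem c.2 (by rwa [Subgroup.orderOf_coe])
    refine ⟨⟨c, h1⟩, Subtype.ext rfl, ?_⟩
    have h2 : orderOf (⟨(c : G), h1⟩ : K) = orderOf c := by
      rw [← Subgroup.orderOf_coe, ← Subgroup.orderOf_coe c]
    rwa [h2]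
  have hpr : ∀ (f : Subgroup.centralizer ({x} : Set G) → ℂ) c, ¬ p ∣ orderOf c → pRegularPart p f c = f c := by
    intro f c hc
    rw [pRegularPart, if_pos (show IsPRegular p c from hc)]
  have hps : ∀ (f : Subgroup.centralizer ({x} : Set G) → ℂ) c, p ∣ orderOf c → pRegularPart p f c = 0 := by
    intro f c hc
    rw [pRegularPart, if_neg (show ¬ IsPRegular p c from fun h => h hc)]
  have hspan : Submodule.span ℂ ((fun χ : IrrCharacter (Subgroup.centralizer ({x} : Set G)) =>
      pRegularPart p (χ : Subgroup.centralizer ({x} : Set G) → ℂ)) ''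
        principalBlock M (Subgroup.centralizer ({x} : Set G))) = Submodule.span ℂ (Set.range b) := by
    apply le_antisymm
    · rw [Submodule.span_le]
      rintro _ ⟨ξ, hξ, rfl⟩
      obtain ⟨c, ψ, hψ, hc⟩ := Cfsg.Agent.H627.BlockRestrict.exists_restrict
        (Subgroup.inclusion S.le) π hπι hker ξ hξ
      obtain ⟨a, ha⟩ := L.span_of ψ hψ
      have h1 : pRegularPart p (ξ : Subgroup.centralizer ({x} : Set G) → ℂ) = ∑ i, (c * a i) • b i := by
        funext h
        rw [Finset.sum_apply]
        by_cases hh : p ∣ orderOf h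
        · rw [hps _ _ hh]
          symm
          refine Finset.sum_eq_zero fun i _ => ?_
          rw [Pi.smul_apply, show b i h = pRegularPart p ((u i : K → ℂ) ∘ π) h from rfl, hps _ _ hh, smul_zero]
        · rw [hpr _ _ hh]
          obtain ⟨k, rfl, hk⟩ := hreg h hh
          rw [hc, ha k hk, Finset.mul_sum]
          refine Finset.sum_congr rfl fun i _ => ?_
          rw [Pi.smul_apply, show b i (Subgroup.inclusion S.le k) = pRegularPart p ((u i : K → ℂ) ∘ π)
            (Subgroup.inclusion S.le k) from rfl, hpr _ _ hh, Function.comp_apply, hπι, smul_eq_mul]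
          ring
      show pRegularPart p (ξ : Subgroup.centralizer ({x} : Set G) → ℂ) ∈ Submodule.span ℂ (Set.range b)
      rw [h1]
      exact Submodule.sum_mem _ fun i _ => Submodule.smul_mem _ _ (Submodule.subset_span ⟨i, rfl⟩)
    · rw [Submodule.span_le]
      rintro _ ⟨i, rfl⟩
      exact Submodule.subset_span ⟨_, H133.PB.mem_principalBlock_comp π hπs (L.mem i), rfl⟩
  have hind : LinearIndependent ℂ b := by
    rw [Fintype.linearIndependent_iff]
    intro a ha i
    have h1 := L.indep a (fun k hk => by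
      have hk' : ¬ p ∣ orderOf (Subgroup.inclusion S.le k) := by
        rwa [orderOf_injective (Subgroup.inclusion S.le) (Subgroup.inclusion_injective S.le) k]
      have h2 := congrFun ha (Subgroup.inclusion S.le k)
      rw [Finset.sum_apply] at h2
      rw [← show (0 : Subgroup.centralizer ({x} : Set G) → ℂ) (Subgroup.inclusion S.le k) = 0 from rfl, ← h2]
      refine Finset.sum_congr rfl fun j _ => ?_
      rw [Pi.smul_apply, show b j (Subgroup.inclusion S.le k) = pRegularPart p ((u j : K → ℂ) ∘ π)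
        (Subgroup.inclusion S.le k) from rfl, hpr _ _ hk', Function.comp_apply, hπι, smul_eq_mul])
    exact congrFun h1 i
  rw [blockRank, hspan, finrank_span_eq_card hind, Fintype.card_fin]

/-- the congruence modulo `p` at a `p`-regular element -/
theorem Cols.cong_reg (hM : IsPModular p M) (S : Sit p x K) {q : IrrCharacter G → Fin e → ℤ}
    (C : Cols p M x K e m u s Φ q) {χ : IrrCharacter G} (hχ : χ ∈ principalBlock M G) (y : K) (hy : ¬ p ∣ orderOf y)
    {v : ℤ} (hv : (χ : G → ℂ) y = v) {w : Fin e → ℤ} (hw : ∀ j, (u j : K → ℂ) y = w j) :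
    (p : ℤ) ∣ v - ∑ j, q χ j * (s j * w j) := by
  have h3 := CharactersDeep.ModCongr.memLocalIdeal_character_sub hM χ.2 (x * y) x
    ⟨y, rfl, S.comm y.2, ⟨1, by rw [S.ord, pow_one]⟩, by rwa [Subgroup.orderOf_coe]⟩
  rw [inv_mul_cancel_left, C.val χ hχ y hy, hv] at h3
  have h4 : (∑ i, (q χ i : ℂ) * ((s i : ℂ) * (u i : K → ℂ) y)) - (v : ℂ) =
      ((∑ j, q χ j * (s j * w j) - v : ℤ) : ℂ) := by
    push_cast
    congr 1
    exact Finset.sum_congr rfl fun j _ => by rw [hw]
  rw [h4, Blocks.Local.memLocalIdeal_intCast_iff hM] at h3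
  rw [← dvd_neg, neg_sub]
  exact h3

/-- the value at `x` -/
theorem Cols.val_one {q : IrrCharacter G → Fin e → ℤ} (C : Cols p M x K e m u s Φ q) {χ : IrrCharacter G}
    (hχ : χ ∈ principalBlock M G) :
    (χ : G → ℂ) x = ((∑ j, q χ j * (s j * charDegree (u j : K → ℂ)) : ℤ) : ℂ) := by
  have hone : ¬ p ∣ orderOf (1 : K) := by
    rw [orderOf_one]; exact hp.out.one_lt.ne' ∘ Nat.dvd_one.1
  have h1 := C.val χ hχ 1 hone
  rw [Subgroup.coe_one, mul_one] at h1
  rw [h1]
  push_cast
  exact Finset.sum_congr rfl fun i _ => by rw [Blocks.Basic.irr_one_eq_charDegree (u i).2]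

/-- **the congruence modulo `|P|`**, all the elements `≠ 1` of `P` conjugate to `x` -/
theorem Cols.cong_card {q : IrrCharacter G → Fin e → ℤ} (C : Cols p M x K e m u s Φ q) {χ : IrrCharacter G}
    (hχ : χ ∈ principalBlock M G) (P : Subgroup G) (hP : ∀ g ∈ P, g ≠ 1 → IsConj x g) :
    (Nat.card P : ℤ) ∣ charDegree (χ : G → ℂ) - ∑ j, q χ j * (s j * charDegree (u j : K → ℂ)) := by
  classical
  have := Fintype.ofFinite P
  have hg : IsGeneralizedCharacter P (fun t : P => (χ : G → ℂ) t) := gen_comp P.subtype (gen_of_irr χ.2)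
  obtain ⟨n, hn⟩ := gen_inner hg (gen_one (G := P))
  have h1 : (Nat.card P : ℂ) ≠ 0 := by exact_mod_cast Nat.card_pos.ne'
  have h2 : ∑ t : P, (χ : G → ℂ) t = Nat.card P * n := by
    rw [classInner_def] at hn
    have h3 : ∑ t : P, (χ : G → ℂ) t * conj ((1 : P → ℂ) t) = ∑ t : P, (χ : G → ℂ) t := by
      refine Finset.sum_congr rfl fun t _ => ?_
      rw [Pi.one_apply, map_one, mul_one]
    rw [h3] at hn
    rw [← hn, ← mul_assoc, mul_inv_cancel₀ h1, one_mul]
  have h4 : ∑ t : P, (χ : G → ℂ) t = charDegree (χ : G → ℂ) + ((Nat.card P - 1 : ℕ) : ℂ) * (χ : G → ℂ) x := by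
    rw [← Finset.add_sum_erase _ _ (Finset.mem_univ (1 : P)), Subgroup.coe_one, Blocks.Basic.irr_one_eq_charDegree χ.2,
      Finset.sum_congr rfl fun t ht => ?_, Finset.sum_const,
      Finset.card_erase_of_mem (Finset.mem_univ _), Finset.card_univ, ← Nat.card_eq_fintype_card, nsmul_eq_mul]
    obtain ⟨c, hc⟩ := isConj_iff.1 (hP t t.2 fun h => Finset.ne_of_mem_erase ht (Subtype.ext h))
    rw [← hc]
    exact isIrr_isClassFunction χ.2 _ _
  rw [h2, C.val_one hχ] at h4
  have h5 : ((Nat.card P * n : ℤ) : ℂ) = ((charDegree (χ : G → ℂ) + ((Nat.card P - 1 : ℕ) : ℤ) *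
      ∑ j, q χ j * (s j * charDegree (u j : K → ℂ)) : ℤ) : ℂ) := by
    push_cast
    push_cast at h4
    exact h4
  have h6 : (Nat.card P * n : ℤ) = charDegree (χ : G → ℂ) + ((Nat.card P - 1 : ℕ) : ℤ) *
      ∑ j, q χ j * (s j * charDegree (u j : K → ℂ)) := by exact_mod_cast h5
  have h7 : (((Nat.card P - 1 : ℕ) : ℤ)) = (Nat.card P : ℤ) - 1 := by
    have := Nat.card_pos (α := P)
    omega
  rw [h7] at h6
  exact ⟨n - ∑ j, q χ j * (s j * charDegree (u j : K → ℂ)), by linear_combination -h6⟩

end main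

section sit

variable {G : Type u} [Group G] [Finite G] {p : ℕ} [hp : Fact p.Prime] {M : Ideal AlgInt} {x : G}

/-- **The complement** -/
theorem exists_sit (P : Sylow p G) (hP : Nat.card P = p ^ 2) (hexp : ∀ g ∈ (P : Subgroup G), g ^ p = 1)
    (hx : x ∈ (P : Subgroup G)) (hx1 : x ≠ 1) :
    ∃ (K : Subgroup G), Sit p x K ∧ (Nat.card K).factorization p = 1 := by
  classical
  have hpp : p.Prime := hp.out
  have hord : orderOf x = p := orderOf_eq_prime (hexp x hx) hx1
  -- `P` is commutative
  have hab : ∀ a ∈ (P : Subgroup G), ∀ b ∈ (P : Subgroup G), a * b = b * a := by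
    have h1 : Nat.card (P : Subgroup G) = p ^ 2 := hP
    have h2 := IsPGroup.isMulCommutative_of_card_eq_prime_sq h1
    intro a ha b hb
    exact congrArg Subtype.val (h2.is_comm.comm ⟨a, ha⟩ ⟨b, hb⟩)
  set C := Subgroup.centralizer ({x} : Set G) with hC
  have hPC : (P : Subgroup G) ≤ C := fun a ha => Subgroup.mem_centralizer_singleton_iff.2 (hab a ha x hx)
  have hxC : x ∈ C := hPC hx
  let N : Subgroup C := Subgroup.zpowers ⟨x, hxC⟩
  have hcen : ∀ c : C, c * ⟨x, hxC⟩ = ⟨x, hxC⟩ * c := fun c =>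
    Subtype.ext (Subgroup.mem_centralizer_singleton_iff.1 c.2)
  have hNn : N.Normal := by
    refine ⟨?_⟩
    rintro _ ⟨i, rfl⟩ g
    refine ⟨i, ?_⟩
    show (⟨x, hxC⟩ : C) ^ i = g * (⟨x, hxC⟩ : C) ^ i * g⁻¹
    have h1 : Commute g ((⟨x, hxC⟩ : C) ^ i) := (show Commute g (⟨x, hxC⟩ : C) from hcen g).zpow_right i
    rw [h1.eq, mul_inv_cancel_right]
  have hNc : IsMulCommutative N := inferInstance
  have hNcard : Nat.card N = p := by
    rw [Nat.card_zpowers, Subgroup.orderOf_mk, hord]
  let U : Subgroup C := (P : Subgroup G).subgroupOf C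
  have hUcard : Nat.card U = p ^ 2 := by
    rw [Nat.card_congr (Subgroup.subgroupOfEquivOfLe hPC).toEquiv]
    exact hP
  have hNU : N ≤ U := by
    rw [Subgroup.zpowers_le]
    exact hx
  have hcop : (Nat.card N).Coprime U.index := by
    rw [hNcard, hpp.coprime_iff_not_dvd]
    intro h
    have h1 : p ∣ (P : Subgroup G).index := by
      have h2 : U.index ∣ (P : Subgroup G).index := by
        show (P : Subgroup G).relIndex C ∣ _
        exact ⟨C.index, (Subgroup.relIndex_mul_index hPC).symm⟩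
      exact h.trans h2
    exact P.not_dvd_index h1
  -- an element outside
  obtain ⟨z, hzU, hzN⟩ : ∃ z ∈ U, z ∉ N := by
    by_contra hcon
    push Not at hcon
    have h1 := Subgroup.card_le_of_le (show U ≤ N from hcon)
    rw [hUcard, hNcard] at h1
    nlinarith [hpp.two_le]
  have hzord : orderOf z = p := by
    refine orderOf_eq_prime ?_ ?_
    · apply Subtype.ext
      rw [Subgroup.coe_pow]
      exact hexp z hzU
    · rintro rfl
      exact hzN N.one_mem
  let A : Subgroup C := Subgroup.zpowers z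
  have hAcard : Nat.card A = p := by rw [Nat.card_zpowers, hzord]
  have hAU : A ≤ U := by rwa [Subgroup.zpowers_le]
  have hAN : A ⊓ N = ⊥ := by
    have h1 : Nat.card (A ⊓ N : Subgroup C) ∣ p := by
      rw [← hAcard]; exact Subgroup.card_dvd_of_le inf_le_left
    rcases (Nat.dvd_prime hpp).1 h1 with h2 | h2
    · exact Subgroup.eq_bot_of_card_eq _ h2
    · exfalso
      apply hzN
      have h3 : (A ⊓ N : Subgroup C) = A := Subgroup.eq_of_le_of_card_ge inf_le_left (by rw [h2, hAcard])
      have h4 : z ∈ (A ⊓ N : Subgroup C) := by rw [h3]; exact Subgroup.mem_zpowers z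
      exact h4.2
  have hNA : N ⊔ A = U := by
    have hle : N ⊔ A ≤ U := sup_le hNU hAU
    refine Subgroup.eq_of_le_of_card_ge hle ?_
    have h1 : Nat.card (N ⊔ A : Subgroup C) ∣ p ^ 2 := hUcard ▸ Subgroup.card_dvd_of_le hle
    obtain ⟨k, hk, hk'⟩ := (Nat.dvd_prime_pow hpp).1 h1
    rcases Nat.lt_or_ge k 2 with h2 | h2
    · exfalso
      have h3 : Nat.card (N ⊔ A : Subgroup C) ≤ Nat.card N := by
        rw [hk', hNcard]
        calc p ^ k ≤ p ^ 1 := Nat.pow_le_pow_right hpp.pos (by omega)
          _ = p := pow_one p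
      have h4 : N = N ⊔ A := Subgroup.eq_of_le_of_card_ge le_sup_left h3
      apply hzN
      rw [h4]
      exact Subgroup.mem_sup_right (Subgroup.mem_zpowers z)
    · rw [hk', hUcard]
      exact Nat.pow_le_pow_right hpp.pos h2
  obtain ⟨H, hH⟩ := Cfsg.Agent.S0051.result N U hNU hcop A hAU hAN hNA
  refine ⟨H.map C.subtype, ⟨hord, ?_, ?_, ?_⟩, ?_⟩
  · rintro _ ⟨h, _, rfl⟩
    exact h.2
  · rintro ⟨h, hh, hhx⟩
    have h1 : h = ⟨x, hxC⟩ := Subtype.ext hhx
    have h2 : h ∈ N ⊓ H := ⟨h1 ▸ Subgroup.mem_zpowers _, hh⟩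
    rw [hH.disjoint.eq_bot] at h2
    apply hx1
    have h3 : h = 1 := Subgroup.mem_bot.1 h2
    rw [← hhx, h3]
    rfl
  · rw [Subgroup.card_map_of_injective C.subtype_injective, ← hNcard, hH.card_mul_card]
  · rw [Subgroup.card_map_of_injective C.subtype_injective]
    have h1 : Nat.card C = p * Nat.card H := by rw [← hNcard, hH.card_mul_card]
    have h2 : (Nat.card C).factorization p = 2 := by
      have h3 : ¬ p ∣ U.index := by
        intro h
        have h4 := Nat.dvd_gcd (hNcard ▸ dvd_refl p : p ∣ Nat.card N) h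
        rw [hcop] at h4
        exact hpp.one_lt.ne' (Nat.dvd_one.1 h4)
      rw [← U.card_mul_index, hUcard, Nat.factorization_mul (pow_ne_zero _ hpp.ne_zero) Subgroup.index_ne_zero_of_finite,
        Finsupp.add_apply, Nat.factorization_eq_zero_of_not_dvd h3, hpp.factorization_pow, Finsupp.single_eq_same]
    rw [h1, Nat.factorization_mul hpp.ne_zero Nat.card_pos.ne', Finsupp.add_apply, hpp.factorization,
      Finsupp.single_eq_same] at h2
    omega

/-- **The local data** -/
theorem exists_loc' (hM : IsPModular p M) (hodd : p ≠ 2) (K : Type u) [Group K] [Fintype K]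
    (hK : (Nat.card K).factorization p = 1) :
    ∃ (e m : ℕ) (u : Fin e → IrrCharacter K) (s : Fin e → ℤ) (Φ : Fin e → K → ℂ), Loc p M K e m u s Φ := by
  classical
  have hpp : p.Prime := hp.out
  obtain ⟨P⟩ : Nonempty (Sylow p K) := inferInstance
  have hP : Nat.card P = p := by
    rw [P.card_eq_multiplicity, hK, pow_one]
  obtain ⟨m, hm⟩ : (Subgroup.centralizer (P : Set K)).relIndex (Subgroup.normalizer (P : Set K)) ∣ p - 1 :=
    SmallSimple.SylowPrimeCount.relIndex_dvd_pred hpp hP
  obtain ⟨u, s, Φ, L⟩ := exists_loc p M hM hodd P hP _ m rfl hm.symm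
  exact ⟨_, m, u, s, Φ, L⟩

end sit

end Cfsg.Agent.H608.Lb
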